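import Cfsg.Agent.H36.O84Spec

/-! Tower O84, item FR: the Frattini argument. -/

set_option autoImplicit false

namespace H5.O84FR
open Subgroup H36.O84

theorem jobFR : JobFR := by
  intro Γ _ _ T J a n hTJ hT h5 ha hn
  have := Fact.mk Nat.prime_five
  set N := normalizer (J : Set Γ) with hN
  have hJ : J ≤ N := le_normalizer
  have c1 : Nat.card ((T.subgroupOf N).subgroupOf (J.subgroupOf N)) = 5 ^ 4 := by
    rw [Nat.card_congr (subgroupOfEquivOfLe (subgroupOf_mono N hTJ)).toEquiv,
      Nat.card_congr (subgroupOfEquivOfLe (hTJ.trans hJ)).toEquiv, hT]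
    norm_num
  have c2 : ¬ 5 ∣ ((T.subgroupOf N).subgroupOf (J.subgroupOf N)).index := fun h => h5 (by
    rw [← Nat.card_congr (subgroupOfEquivOfLe hJ).toEquiv,
      ← ((T.subgroupOf N).subgroupOf (J.subgroupOf N)).card_mul_index, c1, pow_succ 5 4]
    exact Nat.mul_dvd_mul_left _ h)
  have fr := Sylow.normalizer_sup_eq_top ((IsPGroup.of_card c1).toSylow c2)
  rw [IsPGroup.toSylow_coe, subgroupOf_map_subtype, inf_eq_left.2 (subgroupOf_mono N hTJ),
    ← subgroupOf_normalizer_eq (hTJ.trans hJ), ← inf_subgroupOf_right] at fr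
  have e1 : J.relIndex N = J.relIndex (normalizer (T : Set Γ) ⊓ N) := by
    rw [← relIndex_subgroupOf (inf_le_right : normalizer (T : Set Γ) ⊓ N ≤ N),
      ← relIndex_sup_right _ (J.subgroupOf N), fr, relIndex_top_right]
    rfl
  have e2 := (J.subgroupOf (normalizer (T : Set Γ) ⊓ N)).card_mul_index
  rw [← inf_subgroupOf_right, Nat.card_congr (subgroupOfEquivOfLe inf_le_right).toEquiv,
    inf_subgroupOf_right, inf_left_comm, inf_eq_left.2 hJ, ha, hn] at e2
  rw [e1]
  exact Nat.eq_of_mul_eq_mul_left (ha ▸ Nat.card_pos) e2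

end H5.O84FR
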