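import Cfsg.Agent.H42.IVSpec
import Cfsg.Agent.H9.ClassTwo

/-! The 2-group theorem of the tower on involutions inverting few elements of odd order. -/

set_option autoImplicit false

namespace H5.IVP

open Subgroup H42.IV

universe u

theorem jobP : JobP.{u} := by
  intro good ex fib dr xa xb cond par P _ _ D h hP h1 hne hD
  have : Fact (Nat.Prime 2) := ⟨Nat.prime_two⟩
  have := hP.isNilpotent
  obtain ⟨A, hn, hc, -, -, hA⟩ := H9.exists_scn_ge (G := P) (A := ⊥) (N := ⊤) inferInstance bot_le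
  rw [top_inf_eq] at hA
  obtain ⟨b0, hb0, mx⟩ := Set.exists_max_image D (fun b => (nrm A b).ncard) (Set.toFinite D) hne
  obtain ⟨s0, e0, -⟩ := hD b0 hb0
  obtain ⟨a, t, e, w, pr, ha, ht, he, hw⟩ := par P A b0 h hP s0 e0 h1
  have cd : ∀ b ∈ D, Cond A b (kap h t) := fun b hb =>
    cond P A b h t _ hP (hD b hb).1 (hD b hb).2.1 (ht ▸ mx b hb) (good h t h1)
  obtain ⟨X, XA, hX, hXB⟩ := xb P A b0 e he
  have hXA := xa P A b0 e w X s0 hw hX
  have hd := dr P A b0 s0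
  set d := Nat.card (centralizer ({(b0 : P ⧸ A)} : Set (P ⧸ A)))
  rw [ht] at hXA
  rw [ht, ha] at hd
  have pw : 2 ^ a = 2 ^ (a - t) * 2 ^ t := by rw [← pow_add, Nat.sub_add_cancel pr.ta]
  have hd' : d ≤ 2 ^ (a - t) := by
    rw [pw] at hd
    exact Nat.le_of_mul_le_mul_right hd (by positivity)
  let S : Set (P ⧸ A) := {x | ∃ b ∈ D, ((b0 * b : P) : P ⧸ A) = x}
  have i0 : b0⁻¹ = b0 := inv_eq_of_mul_eq_one_right s0
  have hS : S.ncard ≤ d ^ (kap h t + 1) := by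
    refine fib (P ⧸ A) (b0 : P ⧸ A) S _ ?_
    rintro _ ⟨b, hb, rfl⟩
    have ib : b⁻¹ = b := inv_eq_of_mul_eq_one_right (hD b hb).1
    refine ⟨?_, ⟨b * b0 * b⁻¹, (hD b0 hb0).2.2 b, ?_⟩, ?_⟩
    · rw [← QuotientGroup.mk_inv, ← QuotientGroup.mk_inv, ← QuotientGroup.mk_mul,
        ← QuotientGroup.mk_mul, ← mul_assoc, s0, one_mul, mul_inv_rev, ib]
    · rw [← QuotientGroup.mk_pow, ib, pow_two]
      simp only [mul_assoc]
    · rw [← QuotientGroup.mk_pow, QuotientGroup.eq_one_iff]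
      exact ex P A b0 b _ hP hA s0 (hD b hb).1 (cd b0 hb0) (cd b hb)
  have hDS : D.ncard ≤ Nat.card A * S.ncard := by
    rw [← Nat.card_coe_set_eq S, ← QuotientGroup.card_preimage_mk, Nat.card_coe_set_eq]
    exact Set.ncard_le_ncard_of_injOn (fun b => b0 * b) (fun b hb => ⟨b, hb, rfl⟩)
      (mul_right_injective b0).injOn
  refine ⟨X, centralizer (X : Set P), a, t, e, w,
    ⟨⟨fun x y => Subtype.ext (congrArg (Subtype.val (p := (· ∈ A)))
      (hc.is_comm.comm ⟨x, XA x.2⟩ ⟨y, XA y.2⟩))⟩⟩, le_rfl, pr, ?_⟩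
  calc D.ncard * Nat.card P
      ≤ (2 ^ t * 2 ^ (e * w) * Nat.card X * (2 ^ (a - t)) ^ (kap h t + 1)) *
          (2 ^ (a - t) * Nat.card (centralizer (X : Set P))) :=
        Nat.mul_le_mul (hDS.trans (Nat.mul_le_mul hXA (hS.trans (Nat.pow_le_pow_left hd' _))))
          (hXB.trans (Nat.mul_le_mul_right _ hd'))
    _ = _ := by
        rw [pow_add 2 (a + _), pow_add 2 a, pow_mul 2 (a - t), pw]
        ring

end H5.IVP
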