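import Cfsg.Agent.H91.AHSpec

/-! Tower AH (S4162), slot DI: the dichotomy for the primes `p`, `r`. -/

set_option autoImplicit false
set_option linter.unusedSectionVars false

namespace H5.AHDI

open H33.Solv Subgroup MulAction H91.AH

variable {G : Type} [Group G] [Finite G]

/-- The conclusion. -/
def Con (G : Type) [Group G] (p r : ℕ) : Prop :=
  CaseA G p r ∨ ∃ (W : Type) (_ : AddCommGroup W) (_ : Finite W) (_ : DistribMulAction G W),
    LW G W r ∧ p ∣ Nat.card (toPermHom G W).range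

theorem pow_hom {L : Subgroup G} {n : ℕ} (h : (center L).index ∣ n) {x y : G} (hx : x ∈ L)
    (hy : y ∈ L) : (x * y) ^ n = x ^ n * y ^ n := by
  obtain ⟨k, rfl⟩ := h
  have e := congrArg (fun z : center L => ((z : L) : G))
    (map_mul (MonoidHom.transferCenterPow L) ⟨x, hx⟩ ⟨y, hy⟩)
  have c := congrArg Subtype.val (mem_center_iff.1 (MonoidHom.transferCenterPow L ⟨x, hx⟩).2
    (MonoidHom.transferCenterPow L ⟨y, hy⟩))
  simp only [Subgroup.coe_mul, MonoidHom.transferCenterPow_apply, Subgroup.coe_pow] at e c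
  rw [pow_mul, pow_mul, pow_mul, e, Commute.mul_pow (Commute.symm c)]

theorem link {M : Subgroup G} [hM : M.Normal] (hc : ∀ a ∈ M, ∀ b ∈ M, Commute a b) {W : Type}
    [AddCommGroup W] [DistribMulAction G W] {π : G → W} (h : Sec ⊥ M π)
    (act : ∀ g : G, ∀ a ∈ M, g • π a = π (g * a * g⁻¹)) (x : G) :
    Nat.card (fix W x) * orderOf (toPermHom G W x) ≤ cc x := by
  choose σ σM σπ using h.surj
  have tr : ∀ a ∈ M, toPermHom G W a = 1 := fun a ha => Equiv.ext fun w => by
    rw [← σπ w, toPermHom_apply, toPerm_apply, act a _ (σM w), (hc a ha _ (σM w)).eq,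
      mul_inv_cancel_right]; rfl
  have cm : ∀ w : fix W x, Commute (σ w) x := fun w => by
    have := (h.eq_iff (hM.conj_mem _ (σM w) x) (σM w)).1 (by rw [← act x _ (σM w), σπ]; exact w.2)
    rw [mem_bot, inv_mul_eq_one, mul_inv_eq_iff_eq_mul] at this
    exact this.symm
  have := Nat.card_le_card_of_injective (fun a : fix W x × Fin (orderOf (toPermHom G W x)) =>
    (⟨σ a.1 * x ^ (a.2 : ℕ), mem_cent.2 ((cm a.1).mul_left ((Commute.refl x).pow_left _))⟩ :
      centralizer ({x} : Set G))) fun a b e => by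
    have e : σ a.1 * x ^ (a.2 : ℕ) = σ b.1 * x ^ (b.2 : ℕ) := congrArg Subtype.val e
    have e1 := congrArg (toPermHom G W) e
    rw [map_mul, map_mul, tr _ (σM _), tr _ (σM _), one_mul, one_mul, map_pow, map_pow] at e1
    have e2 : a.2 = b.2 := Fin.ext (pow_injOn_Iio_orderOf a.2.2 b.2.2 e1)
    rw [e2, mul_left_inj] at e
    exact Prod.ext (Subtype.ext (by rw [← σπ a.1, e, σπ])) e2
  rwa [Nat.card_prod, Nat.card_fin] at this

theorem caseA {p r : ℕ} (hp : p.Prime) (hr : r.Prime) (pr : p ≠ r) {M : Subgroup G} [M.Normal]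
    (hx : ∀ a ∈ M, a ^ r = 1) (h : CaseA (G ⧸ M) p r)
    (hy : ∀ (y : G) (k : ℕ), y ^ p ^ k = 1 → y ∈ centralizer (M : Set G)) : CaseA G p r := by
  obtain ⟨N, hN, rN, pN⟩ := h
  set L := N.comap (QuotientGroup.mk' M) ⊓ centralizer (M : Set G) with hL
  have nL : L.Normal := inferInstance
  have h1 : (center L).index ∣ Nat.card N := by
    refine (index_dvd_of_le (H := M.subgroupOf L) fun a ha => mem_center_iff.2 fun b =>
      Subtype.ext (mem_centralizer_iff.1 b.2.2 a ha).symm).trans ?_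
    have := relIndex_ker L (QuotientGroup.mk' M)
    rw [QuotientGroup.ker_mk'] at this
    exact this.dvd.trans (card_dvd_of_le (map_le_iff_le_comap.2 inf_le_left))
  let K : Subgroup G :=
    { carrier := {x | x ∈ L ∧ x ^ Nat.card N = 1}
      one_mem' := ⟨one_mem _, one_pow _⟩
      mul_mem' := fun ha hb => ⟨mul_mem ha.1 hb.1, by rw [pow_hom h1 ha.1 hb.1, ha.2, hb.2, one_mul]⟩
      inv_mem' := fun ha => ⟨inv_mem ha.1, by rw [inv_pow, ha.2, inv_one]⟩ }
  refine ⟨K, ⟨fun x hx g => ⟨nL.conj_mem x hx.1 g, by rw [conj_pow, hx.2]; simp⟩⟩, fun k => ?_,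
    fun y k e => ?_⟩
  · have := Fact.mk hr
    obtain ⟨x, ox⟩ := exists_prime_orderOf_dvd_card' r k
    rw [← orderOf_coe] at ox
    exact rN (ox ▸ orderOf_dvd_of_pow_eq_one x.2.2)
  · have h2 : QuotientGroup.mk' M y ∈ N := pN _ k (by rw [← map_pow, e, map_one])
    refine ⟨⟨h2, hy y k e⟩, ?_⟩
    have h3 : y ^ Nat.card N ∈ M := by
      rw [← QuotientGroup.eq_one_iff, QuotientGroup.mk_pow]
      exact orderOf_dvd_iff_pow_eq_one.1 (N.orderOf_dvd_natCard h2)
    refine orderOf_eq_one_iff.1 (Nat.eq_one_of_dvd_coprimes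
      (Nat.Coprime.pow_left k ((Nat.coprime_primes hp hr).2 pr)) (orderOf_dvd_of_pow_eq_one ?_)
      (orderOf_dvd_of_pow_eq_one (hx _ h3)))
    rw [← pow_mul, mul_comm, pow_mul, e, one_pow]

theorem step (ccq : JobCCQ) {p q r : ℕ} (hp : p.Prime) (hq : q.Prime) (hr : r.Prime) (pr : p ≠ r)
    {M : Subgroup G} [M.Normal] (hc : ∀ a ∈ M, ∀ b ∈ M, Commute a b) (hx : ∀ a ∈ M, a ^ q = 1)
    (h : Con (G ⧸ M) p r) : Con G p r := by
  rcases h with h | ⟨W, _, _, _, h, hd⟩
  · by_cases qr : q = r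
    · subst qr
      obtain ⟨W, _, π, s⟩ := exists_sec (Z := ⊥) (N := M)
        (fun a ha b hb => mem_bot.2 (commutatorElement_eq_one_iff_commute.2 (hc a ha b hb)))
        fun a _ z hz => by rw [mem_bot.1 hz]; simp
      obtain ⟨_, act⟩ := s.exists_act
      by_cases hd : p ∣ Nat.card (toPermHom G W).range
      · refine .inr ⟨W, _, s.finite, _, ⟨fun w => ?_, link hc s act⟩, hd⟩
        obtain ⟨a, ha, rfl⟩ := s.surj w
        rw [← s.pow ha, hx a ha, s.one]
      · refine .inl (caseA hp hr pr hx h fun y k e => mem_centralizer_iff.2 fun a ha => ?_)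
        have h1 : toPermHom G W y = 1 := orderOf_eq_one_iff.1 (Nat.eq_one_of_dvd_coprimes
          (Nat.Coprime.pow_left k (hp.coprime_iff_not_dvd.2 hd))
          (orderOf_dvd_of_pow_eq_one (by rw [← map_pow, e, map_one]))
          ((toPermHom G W).range.orderOf_dvd_natCard ⟨y, rfl⟩))
        have h2 : y • π a = π a := Equiv.congr_fun h1 (π a)
        have := (s.eq_iff (Normal.conj_mem ‹_› _ ha y) ha).1 (by rw [← act y a ha, h2])
        rw [mem_bot, inv_mul_eq_one, mul_inv_eq_iff_eq_mul] at this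
        exact this.symm
    · obtain ⟨N, hN, rN, pN⟩ := h
      refine .inl ⟨N.comap (QuotientGroup.mk' M), inferInstance, fun k => ?_,
        fun y k e => pN _ k (by rw [← map_pow, e, map_one])⟩
      have := Fact.mk hr
      obtain ⟨x, ox⟩ := exists_prime_orderOf_dvd_card' r k
      rw [← orderOf_coe] at ox
      rcases (Nat.dvd_prime hr).1 (ox ▸ orderOf_map_dvd (QuotientGroup.mk' M) x) with e | e
      · have := orderOf_dvd_of_pow_eq_one
          (hx _ ((QuotientGroup.eq_one_iff _).1 (orderOf_eq_one_iff.1 e)))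
        rw [ox] at this
        exact qr ((Nat.prime_dvd_prime_iff_eq hr hq).1 this).symm
      · exact rN (e ▸ N.orderOf_dvd_natCard x.2)
  · let _ : DistribMulAction G W := DistribMulAction.compHom W (QuotientGroup.mk' M)
    have e : toPermHom G W = (toPermHom (G ⧸ M) W).comp (QuotientGroup.mk' M) := rfl
    refine .inr ⟨W, _, ‹_›, _, ⟨h.ex, fun x => (h.link (QuotientGroup.mk' M x)).trans ?_⟩, ?_⟩
    · simpa using ccq G _ _ (QuotientGroup.mk'_surjective M) ⊥ x bot_le bot_le (by simp)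
    · rwa [e, MonoidHom.range_comp, MonoidHom.range_eq_top.2 (QuotientGroup.mk'_surjective M),
        ← MonoidHom.range_eq_map]

theorem jobDI : H91.AH.JobDI := by
  intro ccq G _ _ hs p r hp hr pr
  change Con G p r
  induction hn : Nat.card G using Nat.strong_induction_on generalizing G with
  | _ n ih =>
    by_cases h : (⊤ : Subgroup G) = ⊥
    · exact .inl ⟨⊥, inferInstance, by simpa using hr.ne_one, fun y _ _ => h ▸ mem_top y⟩
    obtain ⟨M, q, _, -, h1, hq, -, -, hx, hc, -⟩ := exists_minN ⊤ inferInstance h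
    refine step ccq hp hq hr pr hc hx (ih _ ?_ (G ⧸ M) inferInstance rfl)
    rw [← hn, card_eq_card_quotient_mul_card_subgroup M]
    exact lt_mul_of_one_lt_right Nat.card_pos ((one_lt_card_iff_ne_bot M).2 h1)

end H5.AHDI
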