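import Cfsg.Agent.H91.AHSpec

/-! Tower AH (S4162), slot VQ: no four-group and no quaternion Sylow subgroup. -/

set_option autoImplicit false

namespace H5.AHVQ

open Subgroup H91.AH

variable {G : Type} [Group G] [Finite G]

theorem notV4 (sn : JobSN) (cb : JobCB) (hs : Group.IsSolvable G) (h : AH G) : ¬ V4 G := by
  rintro ⟨S, c4, sq⟩
  have cm : ∀ a ∈ (S : Subgroup G), ∀ b ∈ (S : Subgroup G), a * b = b * a := fun a ha b hb => by
    have := inv_eq_of_mul_eq_one_right (sq _ (mul_mem ha hb))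
    rwa [mul_inv_rev, inv_eq_of_mul_eq_one_right (sq a ha), inv_eq_of_mul_eq_one_right (sq b hb),
      eq_comm] at this
  have n8 : ¬ 8 ∣ Nat.card G := fun k => by
    have h1 := (S : Subgroup G).card_mul_index
    have h2 := S.not_dvd_index
    rw [show Nat.card (S : Subgroup G) = 4 from c4] at h1
    omega
  have v : ∀ e ∈ (S : Subgroup G), e ≠ 1 → cc e = 4 ∨ cc e = 12 := fun e he e1 =>
    (cb G hs h e (orderOf_eq_prime ((pow_two e).trans (sq e he)) e1)
      (c4 ▸ card_dvd_of_le (H := (S : Subgroup G)) fun y hy => mem_cent.2 (cm y hy e he))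
      fun k => n8 (k.trans (cc_dvd e))).1
  have u : ∀ e ∈ (S : Subgroup G), ∀ f ∈ (S : Subgroup G), e ≠ f → cc e ≠ cc f := by
    intro e he f hf ne k
    obtain ⟨g, hg⟩ := isConj_iff.1 (h e f k)
    obtain ⟨n, hn, e1⟩ := S.conj_eq_normalizer_conj_of_mem_centralizer e g⁻¹
      (mem_centralizer_iff.2 fun y hy => cm y hy e he)
      (by rw [inv_inv, hg]; exact mem_centralizer_iff.2 fun y hy => cm y hy f hf)
    have hn := sn G hs h.rat.real S hn
    rw [inv_inv, hg, mul_assoc, cm e he n hn, inv_mul_cancel_left] at e1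
    exact ne e1.symm
  have := Fintype.ofFinite (S : Subgroup G)
  obtain ⟨x, y, z, xy, xz, yz⟩ := Fintype.two_lt_card_iff.1
    (show 2 < Fintype.card (S : Subgroup G) by
      rw [← Nat.card_eq_fintype_card, show Nat.card (S : Subgroup G) = 4 from c4]; decide)
  obtain ⟨a, ha, b, hb, a1, b1, ab⟩ : ∃ a ∈ (S : Subgroup G), ∃ b ∈ (S : Subgroup G),
      a ≠ 1 ∧ b ≠ 1 ∧ a ≠ b :=
    ⟨_, (x⁻¹ * y).2, _, (x⁻¹ * z).2, fun e => xy (inv_mul_eq_one.1 (Subtype.ext e)),
      fun e => xz (inv_mul_eq_one.1 (Subtype.ext e)),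
      fun e => yz (mul_left_cancel (Subtype.ext e : x⁻¹ * y = x⁻¹ * z))⟩
  have h1 := v a ha a1
  have h2 := v b hb b1
  have h3 := v _ (mul_mem ha hb) fun e => ab (mul_right_cancel (e.trans (sq b hb).symm))
  have h4 := u a ha b hb ab
  have h5 := u a ha _ (mul_mem ha hb) (by simpa using b1)
  have h6 := u b hb _ (mul_mem ha hb) (by simpa using a1)
  omega

theorem jobVQ : H91.AH.JobVQ := by
  intro sn idx ca cb G _ _ hs h
  refine ⟨notV4 sn cb hs h, fun S s a h8 e => ?_⟩
  have s2 : s * s ≠ 1 := fun k => by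
    have := orderOf_dvd_of_pow_eq_one ((pow_two s).trans k)
    rw [h8.os] at this
    exact absurd this (by decide)
  have o4 : ∀ x : G, x * x = s * s → IsConj s x := fun x hx =>
    h _ _ ((ca G hs h.rat S s a h8 s h8.os).trans (ca G hs h.rat S s a h8 x
      (orderOf_eq_prime_pow (p := 2) (n := 1) (by rwa [pow_one, pow_two, hx]) (by
        rw [show 2 ^ (1 + 1) = 2 * 2 from rfl, pow_mul, pow_two x, hx, ← pow_two, ← pow_mul]
        exact orderOf_dvd_iff_pow_eq_one.1 h8.os.dvd))).symm)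
  obtain ⟨K, hK⟩ := idx G hs ⟨s, 1, fun k => s2 (by rw [k, one_mul])⟩ h.rat.real
  have nK := normal_of_index_eq_two hK
  have cj : ∀ x : G, IsConj s x → (x ∈ K ↔ s ∈ K) := fun x hx => by
    obtain ⟨g, rfl⟩ := isConj_iff.1 hx
    exact ⟨fun k => by simpa [mul_assoc] using nK.conj_mem' _ k g, fun k => nK.conj_mem _ k g⟩
  have h1 := cj a (o4 a e)
  have h2 := cj (s * a) (o4 _ (by
    rw [show s * a * (s * a) = s * (a * s * a⁻¹) * (a * a) by group, h8.inv, e]; group))
  have sK : s ∈ K := h2.1 ((mul_mem_iff_of_index_two hK).2 h1.symm)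
  refine S.not_dvd_index (hK.symm.dvd.trans (index_dvd_of_le fun y hy => ?_))
  obtain ⟨i, rfl | rfl⟩ := (h8.mem y).1 hy
  exacts [pow_mem sK i, mul_mem (pow_mem sK i) (h1.2 sK)]

end H5.AHVQ
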