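/- C3 tower (row S5227), job N2: the normal form of the automizer of `E₂`. -/
import Cfsg.Agent.H20.C3Kit

set_option autoImplicit false
set_option linter.unusedSimpArgs false
set_option linter.unnecessarySeqFocus false

open Subgroup H20.C3
open H90.RF (Au Pr conj_eq_cm)

namespace H5.C3N2

/-- the central automorphisms `z ↦ z + i c + j g` of `E₂` -/
def r2 (i j : F3) (u : Co) : Co := ⟨u.a, u.b, u.d, u.c, u.e, u.f, u.g, u.h, u.z + (i * u.c + j * u.g)⟩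

theorem au_r2 (i j : F3) : Au sE2 (r2 i j) :=
  H90.RF.Au.of_inj (fun _ h => h) (fun u hu w _ => by ext <;> simp [r2, mem_sE2.1 hu] <;> ring)
    fun u _ w _ e => by
      have h := Co.ext_iff.1 e
      simp only [r2] at h
      obtain ⟨h1, h2, h3, h4, h5, h6, h7, h8, h9⟩ := h
      rw [h4, h7, add_left_inj] at h9
      exact Co.ext h1 h2 h3 h4 h5 h6 h7 h8 h9

theorem au_sd2 (δ : DD) : Au sE2 (sd δ) := (au_sd δ).restrict le_top (pr_sd δ sE2 (by simp))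

theorem wa : ∀ c e f g h z : F3, let p : Co := ⟨1, 0, 0, c, e, f, g, h, z⟩
    p = sd t1 p → p⁻¹ = sd t2 p → p = ⟨1, 0, 0, 0, 0, 0, 0, h, h⟩ := by decide +kernel

theorem wd : ∀ c e f g h z : F3, let p : Co := ⟨0, 0, 1, c, e, f, g, h, z⟩
    p⁻¹ = sd t1 p → p⁻¹ = sd t2 p → p = ⟨0, 0, 1, 0, 0, f, 0, 0, f⟩ := by decide +kernel

theorem wc : ∀ c g f h z : F3, let p : Co := ⟨0, 0, 0, c, 0, f, g, h, z⟩
    p = sd t2 p → p = ⟨0, 0, 0, c, 0, 0, g, 0, z⟩ := by decide +kernel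

theorem we : ∀ f h z : F3, let p : Co := ⟨0, 0, 0, 0, 1, f, 0, h, z⟩
    p⁻¹ = sd t1 p → p = sd t2 p → p = xe 1 := by decide +kernel

/-- an automorphism that commutes with the torus and is trivial on the top factors -/
theorem form {β : Co → Co} (h : Au sE2 β) (c1 : ∀ u ∈ sE2, β (sd t1 u) = sd t1 (β u))
    (c2 : ∀ u ∈ sE2, β (sd t2 u) = sd t2 (β u)) (ad : ∀ u ∈ sE2, (β u).a = u.a ∧ (β u).d = u.d)
    (hA : ∀ u ∈ sA, (β u).c = u.c ∧ (β u).e = u.e ∧ (β u).g = u.g) :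
    ∃ γ ζ i j, ∀ u ∈ sE2, β u = cj (xc γ * xg ζ) (r2 i j u) := by
  have eq : ∀ u ∈ sE2, β u = ⟨u.a, 0, u.d, (β u).c, (β u).e, (β u).f, (β u).g, (β u).h, (β u).z⟩ :=
    fun u hu => Co.ext (ad u hu).1 (h.mem u hu) (ad u hu).2 rfl rfl rfl rfl rfl rfl
  have eA : ∀ u ∈ sA, β u = ⟨0, 0, 0, u.c, u.e, (β u).f, u.g, (β u).h, (β u).z⟩ := fun u hu =>
    Co.ext ((ad u hu.2.1).1.trans hu.1) (h.mem u hu.2.1) ((ad u hu.2.1).2.trans hu.2.2)
      (hA u hu).1 (hA u hu).2.1 rfl (hA u hu).2.2 rfl rfl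
  refine ⟨-(β (xd 1)).f, -(β (xa 1)).h, (β (xc 1)).z, (β (xg 1)).z,
    ext_E2 h ((au_cj sE2 _).comp (au_r2 _ _)) ?_ ?_ ?_ ?_ ?_⟩
  · have e1 := c1 (xa 1) rfl
    have e2 := c2 (xa 1) rfl
    rw [show sd t1 (xa 1) = xa 1 by decide, eq _ rfl] at e1
    rw [show sd t2 (xa 1) = (xa 1)⁻¹ by decide, h.inv (c := xa 1) rfl, eq _ rfl] at e2
    refine ((eq _ rfl).trans (wa _ _ _ _ _ _ e1 e2)).trans ?_
    ext <;> simp [cj, r2, xa, xc, xg]
  · have e1 := c1 (xd 1) rfl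
    have e2 := c2 (xd 1) rfl
    rw [show sd t1 (xd 1) = (xd 1)⁻¹ by decide, h.inv (c := xd 1) rfl, eq _ rfl] at e1
    rw [show sd t2 (xd 1) = (xd 1)⁻¹ by decide, h.inv (c := xd 1) rfl, eq _ rfl] at e2
    refine ((eq _ rfl).trans (wd _ _ _ _ _ _ e1 e2)).trans ?_
    ext <;> simp [cj, r2, xd, xc, xg]
  · have e2 := c2 (xc 1) rfl
    rw [show sd t2 (xc 1) = xc 1 by decide, eA _ ⟨rfl, rfl, rfl⟩] at e2
    refine ((eA _ ⟨rfl, rfl, rfl⟩).trans (wc _ _ _ _ _ e2)).trans ?_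
    ext <;> simp [cj, r2, xc, xg]
  · have e1 := c1 (xe 1) rfl
    have e2 := c2 (xe 1) rfl
    rw [show sd t1 (xe 1) = (xe 1)⁻¹ by decide, h.inv (c := xe 1) rfl, eA _ ⟨rfl, rfl, rfl⟩] at e1
    rw [show sd t2 (xe 1) = xe 1 by decide, eA _ ⟨rfl, rfl, rfl⟩] at e2
    refine ((eA _ ⟨rfl, rfl, rfl⟩).trans (we _ _ _ e1 e2)).trans ?_
    ext <;> simp [cj, r2, xe, xc, xg]
  · have e2 := c2 (xg 1) rfl
    rw [show sd t2 (xg 1) = xg 1 by decide, eA _ ⟨rfl, rfl, rfl⟩] at e2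
    refine ((eA _ ⟨rfl, rfl, rfl⟩).trans (wc _ _ _ _ _ e2)).trans ?_
    ext <;> simp [cj, r2, xc, xg]

variable {Y0 Y1 Y2 Y3 YA : Subgroup (Equiv.Perm Co)}

/-- trivial on the top factors -/
def Rd (y : Co → Co) : Prop := (∀ u ∈ sE2, (y u).a = u.a ∧ (y u).d = u.d) ∧ y (xz 1) = xz 1

/-- congruent to `n₂` -/
def Gn (n : Co → Co) : Prop := (∀ u ∈ sE2, (n u).a = u.d ∧ (n u).d = -u.a) ∧ n (xz 1) = xz 1

theorem rd_cj {s : Co} (hs : s ∈ sE2) {y : Co → Co} (e : ∀ u ∈ sE2, y u = s * u * s⁻¹) : Rd y :=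
  ⟨fun u hu => by rw [e u hu, cj_a, cj_d, mem_sE2.1 hu, mem_sE2.1 hs]; simp, by
    rw [e _ rfl, conj_eq_cm, cm_S_Z s ⟨rfl, rfl, rfl, rfl, rfl, rfl, rfl, rfl⟩, mul_one]⟩

variable (T : Tri Y0 Y1 Y2 Y3 YA)
include T

theorem gn_mul {j n : Equiv.Perm Co} (hn : n ∈ Y2) (h : Rd j) (g : Gn n) : Gn ⇑(j * n) :=
  ⟨fun u hu => by
    have := h.1 _ ((T.l2.au n hn).mem u hu)
    rw [Equiv.Perm.mul_apply, this.1, this.2]
    exact g.1 u hu, by rw [Equiv.Perm.mul_apply, g.2, h.2]⟩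

omit T in
theorem pow_cj {y : Equiv.Perm Co} {s : Co} (e : ∀ u ∈ sE2, y u = s * u * s⁻¹) (k : ℕ) :
    ∀ u ∈ sE2, (y ^ k) u = s ^ k * u * (s ^ k)⁻¹ := by
  induction k with
  | zero => simp
  | succ k ih =>
    intro u hu
    rw [pow_succ', Equiv.Perm.mul_apply, ih u hu, e _ (nE2.conj_mem u hu _), pow_succ']
    group

theorem step {n P S : Equiv.Perm Co} (hn : n ∈ Y2) (g : Gn n) (hP : P ∈ Y2) (hS : S ∈ Y2) {δ δ' : DD}
    (eP : ∀ u ∈ sE2, P u = sd δ u) (eS : ∀ u ∈ sE2, S u = sd δ' u) (h1 : δ'.1 * (δ.1 * δ.2.1) = 1)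
    (h2 : δ'.1 * δ'.2.1 * δ.1 = 1) (h3 : δ.2.2 = 1) (h4 : δ'.2.2 = 1) :
    ∃ k : ℕ, Rd ⇑((S * (n * P * n⁻¹)) ^ k) ∧
      (S * (n * P * n⁻¹)) ^ k * (n * P * n⁻¹) * ((S * (n * P * n⁻¹)) ^ k)⁻¹ = S := by
  have sq : ∀ {Q : Equiv.Perm Co} {ε : DD}, Q ∈ Y2 → (∀ u ∈ sE2, Q u = sd ε u) → Q * Q = 1 :=
    fun {Q ε} hQ e => T.l2.ext (mul_mem hQ hQ) (one_mem _) fun u hu => by
      rw [Equiv.Perm.mul_apply, e u hu, e _ ((au_sd2 ε).mem u hu), sd_sd_self]; rfl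
  have m := mul_mem hS (mul_mem (mul_mem hn hP) (inv_mem hn))
  have zz : ∀ ε : DD, ε.2.2 = 1 → sd ε (xz 1) = xz 1 := fun ε e => by ext <;> simp [sd, xz, e]
  obtain ⟨s, hs, e⟩ := T.rad2 _ m (fun u hu => by
      have hw := (T.l2.au _ (inv_mem hn)).mem u hu
      obtain ⟨w, rfl⟩ := n.surjective u
      have iv : n⁻¹ (n w) = w := n.symm_apply_apply w
      rw [iv] at hw
      have a1 := (au_sd2 δ).mem w hw
      have a2 := g.1 _ a1
      have a3 := g.1 w hw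
      have b1 := congrArg Units.val h1
      have b2 := congrArg Units.val h2
      simp only [Equiv.Perm.mul_apply, iv, eP w hw,
        eS _ ((T.l2.au n hn).mem _ a1)]
      simp only [Units.val_mul, Units.val_one] at b1 b2
      simp only [sd] at a2 ⊢
      rw [a2.1, a2.2, a3.1, a3.2]
      exact ⟨by linear_combination w.d * b1, by linear_combination -w.a * b2⟩)
    (by
      have : n⁻¹ (xz 1) = xz 1 := by rw [Equiv.Perm.inv_eq_iff_eq, g.2]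
      simp only [Equiv.Perm.mul_apply]
      rw [this, eP _ rfl, zz δ h3, g.2, eS _ rfl, zz δ' h4])
  obtain ⟨k, hk⟩ := inv_conj (sq hS eS) (t' := n * P * n⁻¹) (by rw [conj_mul, sq hP eP]; simp)
    (n := 3 ^ 9) (by decide) (T.l2.ext (pow_mem m _) (one_mem _) fun u hu => by
      rw [pow_cj e _ u hu, ← card_Co, pow_card_eq_one']; simp)
  exact ⟨k, rd_cj (pow_mem hs k) (pow_cj e k), hk⟩

omit T in
theorem jobN2 : JobN2 := by
  rintro a2 Y0 Y1 Y2 Y3 YA T ⟨y1, hy1, e1⟩ ⟨y2, hy2, e2⟩ ⟨n, hn, g⟩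
  obtain ⟨P, hP, eP⟩ := (T.res2 y1 hy1).congr fun u _ => e1 u trivial
  obtain ⟨Q, hQ, eQ⟩ := (T.res2 y2 hy2).congr fun u _ => e2 u trivial
  have ePQ : ∀ u ∈ sE2, (P * Q) u = sd (t1 * t2) u := fun u hu => by
    rw [Equiv.Perm.mul_apply, eQ u hu, eP _ ((au_sd2 _).mem u hu), sd_sd]
  have cPQ : Commute Q P := T.l2.ext (mul_mem hQ hP) (mul_mem hP hQ) fun u hu => by
    rw [ePQ u hu, Equiv.Perm.mul_apply, eP u hu, eQ _ ((au_sd2 _).mem u hu), sd_sd, mul_comm]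
  obtain ⟨n, hn, g, c2⟩ : ∃ n ∈ Y2, Gn n ∧ Commute Q n := by
    obtain ⟨k, h1, h2⟩ := step T hn g hQ hQ eQ eQ (by decide) (by decide) rfl rfl
    refine ⟨_, mul_mem (pow_mem (mul_mem hQ (mul_mem (mul_mem hn hQ) (inv_mem hn))) k) hn,
      gn_mul T hn h1 g, ?_⟩
    generalize (Q * (n * Q * n⁻¹)) ^ k = j at h2
    change Q * (j * n) = j * n * Q
    calc _ = j * (n * Q * n⁻¹) * j⁻¹ * (j * n) := by rw [h2]
      _ = _ := by group
  obtain ⟨n, hn, g, c2, c1⟩ : ∃ n ∈ Y2, Gn n ∧ Commute Q n ∧ P * Q * n = n * P := by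
    obtain ⟨k, h1, h2⟩ := step T hn g hP (mul_mem hP hQ) eP ePQ (by decide) (by decide) rfl rfl
    refine ⟨_, mul_mem (pow_mem (mul_mem (mul_mem hP hQ) (mul_mem (mul_mem hn hP) (inv_mem hn))) k) hn,
      gn_mul T hn h1 g, (((cPQ.mul_right (Commute.refl Q)).mul_right
        ((c2.mul_right cPQ).mul_right c2.inv_right)).pow_right k).mul_right c2, ?_⟩
    generalize (P * Q * (n * P * n⁻¹)) ^ k = j at h2
    calc _ = j * (n * P * n⁻¹) * j⁻¹ * (j * n) := by rw [h2]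
      _ = _ := by group
  have an := T.l2.au n hn
  have aβ : Au sE2 fun u => sd t2 (n u).nu2 := (au_sd2 t2).comp (au_nu2.comp an)
  have ad : ∀ u ∈ sE2, (sd t2 (n u).nu2).a = u.a ∧ (sd t2 (n u).nu2).d = u.d := fun u hu => by
    simp [sd, t2, Co.nu2, (g.1 u hu).1, (g.1 u hu).2]
  obtain ⟨γ, ζ, i, j, hβ⟩ := form aβ (fun u hu => by
      have := DFunLike.congr_fun c1 u
      rw [Equiv.Perm.mul_apply, ePQ _ (an.mem u hu), Equiv.Perm.mul_apply, eP u hu] at this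
      rw [← this]
      ext <;> simp [sd, t1, t2, Co.nu2])
    (fun u hu => by
      have := DFunLike.congr_fun c2.eq u
      rw [Equiv.Perm.mul_apply, eQ _ (an.mem u hu), Equiv.Perm.mul_apply, eQ u hu] at this
      rw [← this]
      ext <;> simp [sd, t2, Co.nu2]) ad
    ((a2 _ aβ).2.2.2.2.2 ad (by rw [g.2]; decide))
  have hw : xc γ * xg ζ ∈ sE2 := mul_mem rfl rfl
  obtain ⟨y, hy, e⟩ : In sE2 Y2 fun u => (r2 i j u).nu2 := by
    obtain ⟨y, hy, e⟩ := T.inn (xc γ * xg ζ).nu2⁻¹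
    refine ((((T.res2 y hy).congr fun u _ => e u trivial).comp (In.of_mem hn) an.mem)).congr
      fun u hu => ?_
    have h1 : n u = (sd t2 (n u).nu2).nu2 := by
      have : (n u).b = 0 := an.mem u hu
      ext <;> simp [sd, t2, Co.nu2, this]
    rw [h1, hβ u hu, cj, cj, au_nu2.conj hw ((au_r2 i j).mem u hu)]
    group
  have ay := T.l2.au y hy
  obtain ⟨s, -, hs⟩ := T.rad2 _ (mul_mem (mul_mem hy hy) hQ) (fun u hu => by
      have h1 := (au_sd2 t2).mem u hu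
      simp only [Equiv.Perm.mul_apply]
      rw [eQ u hu, e _ (ay.mem _ h1), e _ h1]
      simp [sd, t2, Co.nu2, r2])
    (by
      simp only [Equiv.Perm.mul_apply]
      rw [eQ _ rfl, e _ (ay.mem _ rfl), e _ rfl]
      ext <;> simp [sd, t2, Co.nu2, r2, xz])
  have h1 := hs (xc 1) rfl
  simp only [Equiv.Perm.mul_apply] at h1
  rw [eQ _ rfl, e _ (ay.mem _ rfl), e _ rfl, cj_A s ⟨rfl, rfl, rfl⟩] at h1
  have h2 := congrArg Co.f h1
  have h3 := congrArg Co.z h1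
  simp [sd, t2, Co.nu2, r2, xc, vv] at h2 h3
  refine ⟨j, y, hy, fun u hu => ?_⟩
  rw [e u hu]
  have h4 : i = -j := by rw [← h2] at h3; linear_combination h3
  ext <;> simp [Co.nu2, r2, rho, h4]
  ring

end H5.C3N2
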