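import Cfsg.Agent.Base

/-! Modules over `F_p[X]/(Φ_q)`. -/

namespace H5

open Polynomial

section
variable {F V : Type*} [Field F] [AddCommGroup V] [Module F V]

theorem semiconj_aeval {T T' : Module.End F V} (σ : V →ₗ[F] V) (h : ∀ u, σ (T u) = T' (σ u))
    (g : F[X]) (u : V) : σ (aeval T g u) = aeval T' g (σ u) := by
  induction g using Polynomial.induction_on' generalizing u with
  | add a b ha hb => simp [ha, hb]
  | monomial n a =>
    simp only [aeval_monomial, Module.End.mul_apply, Module.algebraMap_end_apply, map_smul]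
    congr 1
    induction n generalizing u with
    | zero => simp
    | succ n ih => simp only [pow_succ, Module.End.mul_apply, ih, h]

theorem aeval_pow_eq (T : Module.End F V) (k : ℕ) (g : F[X]) :
    aeval (T ^ k) g = aeval T (g.comp (X ^ k)) := by
  rw [aeval_comp]; simp

theorem exists_irr_factor_not_inj [Nontrivial V] (T : Module.End F V) (f : F[X]) (hf : f ≠ 0)
    (h : aeval T f = 0) : ∃ g : F[X], Irreducible g ∧ g ∣ f ∧ ∃ v, v ≠ 0 ∧ aeval T g v = 0 := by
  induction f using UniqueFactorizationMonoid.induction_on_prime with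
  | h₁ => exact absurd rfl hf
  | h₂ u hu =>
    exfalso
    have := hu.map (aeval T : F[X] →ₐ[F] Module.End F V)
    rw [h] at this
    exact not_isUnit_zero this
  | h₃ a g ha hg ih =>
    by_cases h0 : aeval T a = 0
    · obtain ⟨g', h1, h2, h3⟩ := ih ha h0
      exact ⟨g', h1, h2.mul_left _, h3⟩
    · obtain ⟨u, hu⟩ : ∃ u, aeval T a u ≠ 0 := by
        by_contra! hh
        exact h0 (LinearMap.ext hh)
      refine ⟨g, hg.irreducible, dvd_mul_right _ _, aeval T a u, hu, ?_⟩
      rw [← Module.End.mul_apply, ← map_mul, h]; rfl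

theorem dvd_of_aeval_eq_zero [Nontrivial V] {T : Module.End F V} {g h : F[X]}
    (hg : Irreducible g) (h1 : aeval T g = 0) (h2 : aeval T h = 0) : g ∣ h := by
  by_contra hn
  obtain ⟨a, b, hab⟩ := (hg.coprime_iff_not_dvd.2 hn)
  have := congrArg (aeval T) hab
  simp only [map_add, map_mul, h1, h2, mul_zero, add_zero, map_one] at this
  exact zero_ne_one this

/-- If all cyclic submodules are twisted conjugates, the polynomial ring acts as a field. -/
theorem aeval_eq_zero_of_trans [Finite V] (T : Module.End F V)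
    (ht : ∀ v w : V, v ≠ 0 → w ≠ 0 → ∃ (σ : V ≃ₗ[F] V) (k : ℕ), σ v = w ∧
      ∀ u, σ (T u) = (T ^ k) (σ u))
    {g : F[X]} {v : V} (hv : v ≠ 0) (hg : aeval T g v = 0) : aeval T g = 0 := by
  let C : V → Set V := fun w => Set.range fun f : F[X] => aeval T f w
  have hle : ∀ v w, v ≠ 0 → w ≠ 0 → (C v).ncard ≤ (C w).ncard := by
    intro v w hv hw
    obtain ⟨σ, k, h1, h2⟩ := ht v w hv hw
    refine Set.ncard_le_ncard_of_injOn σ ?_ σ.injective.injOn (Set.toFinite _)
    rintro _ ⟨f, rfl⟩
    refine ⟨f.comp (X ^ k), ?_⟩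
    have := semiconj_aeval (T := T) (T' := T ^ k) σ.toLinearMap h2 f v
    simp only [LinearEquiv.coe_coe] at this
    simp only [this, aeval_pow_eq, h1]
  have hsub : ∀ u w, u ∈ C w → C u ⊆ C w := by
    rintro _ w ⟨f, rfl⟩ _ ⟨f', rfl⟩
    exact ⟨f' * f, by simp [map_mul]⟩
  have hself : ∀ w, w ∈ C w := fun w => ⟨1, by simp⟩
  have hsymm : ∀ u w, u ≠ 0 → w ≠ 0 → u ∈ C w → C u = C w := fun u w hu hw h =>
    Set.eq_of_subset_of_ncard_le (hsub u w h) (hle w u hw hu) (Set.toFinite _)
  ext u
  by_contra hu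
  change aeval T g u ≠ 0 at hu
  have hu0 : u ≠ 0 := by rintro rfl; exact hu (map_zero _)
  have huv : aeval T g (u + v) = aeval T g u := by rw [map_add, hg, add_zero]
  have huv0 : u + v ≠ 0 := by
    intro h; rw [h, map_zero] at huv; exact hu huv.symm
  have e1 : C (aeval T g u) = C u := hsymm _ _ hu hu0 ⟨g, rfl⟩
  have e2 : C (aeval T g u) = C (u + v) := hsymm _ _ hu huv0 ⟨g, huv⟩
  obtain ⟨f, hf⟩ : u + v ∈ C u := by rw [← e1, e2]; exact hself _
  have hvu : v ∈ C u := by
    refine ⟨f - 1, ?_⟩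
    simp only [map_sub, map_one, LinearMap.sub_apply, Module.End.one_apply]
    rw [show (aeval T f) u = u + v from hf]; abel
  obtain ⟨f', hf'⟩ : u ∈ C v := by rw [hsymm _ _ hv hu0 hvu]; exact hself _
  apply hu
  rw [← show aeval T f' v = u from hf', ← Module.End.mul_apply, ← map_mul, mul_comm, map_mul,
    Module.End.mul_apply, hg, map_zero]

theorem exists_linearEquiv_apply_eq {v w : V} (hv : v ≠ 0) (hw : w ≠ 0) :
    ∃ g : V ≃ₗ[F] V, g v = w := by
  let f := (LinearEquiv.toSpanNonzeroSingleton F V v hv).symm ≪≫ₗ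
    LinearEquiv.toSpanNonzeroSingleton F V w hw
  obtain ⟨g, hg⟩ := Submodule.exists_linearEquiv_restrict_eq f
  refine ⟨g, ?_⟩
  have := hg (LinearEquiv.toSpanNonzeroSingleton F V v hv 1)
  simp only [f, LinearEquiv.trans_apply, LinearEquiv.symm_apply_apply] at this
  simpa using this.symm

/-- Two structures of module over the field `F[X]/(f)` on the same finite space are isomorphic,
by an isomorphism with prescribed value at a nonzero vector. -/
theorem exists_semiconj_of_irreducible [Finite V] {f : F[X]} (hf : Irreducible f)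
    {T T' : Module.End F V} (h : aeval T f = 0) (h' : aeval T' f = 0) {v w : V} (hv : v ≠ 0)
    (hw : w ≠ 0) : ∃ σ : V ≃+ V, σ v = w ∧ ∀ u, σ (T u) = T' (σ u) := by
  have tors : ∀ S : Module.End F V, aeval S f = 0 →
      Module.IsTorsionBy F[X] (Module.AEval' S) f := by
    intro S hS x
    obtain ⟨y, rfl⟩ := (Module.AEval'.of S).surjective x
    change f • Module.AEval.of F V S y = 0
    rw [← Module.AEval.of_aeval_smul, hS, zero_smul, map_zero]
  haveI : (Ideal.span {f}).IsMaximal := PrincipalIdealRing.isMaximal_of_irreducible hf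
  letI : Field (F[X] ⧸ Ideal.span {f}) := Ideal.Quotient.field _
  letI := (tors T h).module
  letI := (tors T' h').module
  haveI : Finite (Module.AEval' T) := Finite.of_equiv _ (Module.AEval'.of T).toEquiv
  haveI : Finite (Module.AEval' T') := Finite.of_equiv _ (Module.AEval'.of T').toEquiv
  have hv' : Module.AEval'.of T v ≠ 0 := by simpa using hv
  have hw' : Module.AEval'.of T' w ≠ 0 := by simpa using hw
  haveI : Finite (F[X] ⧸ Ideal.span {f}) :=
    Finite.of_injective (fun c : F[X] ⧸ Ideal.span {f} => c • Module.AEval'.of T v)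
      (smul_left_injective _ hv')
  have hc : Nat.card (Module.AEval' T) = Nat.card (Module.AEval' T') :=
    (Nat.card_congr (Module.AEval'.of T).toEquiv).symm.trans
      (Nat.card_congr (Module.AEval'.of T').toEquiv)
  rw [Module.natCard_eq_pow_finrank (K := F[X] ⧸ Ideal.span {f}),
    Module.natCard_eq_pow_finrank (K := F[X] ⧸ Ideal.span {f}) (V := Module.AEval' T')] at hc
  have hr := Nat.pow_right_injective (Finite.one_lt_card (α := F[X] ⧸ Ideal.span {f})) hc
  let e := LinearEquiv.ofFinrankEq _ _ hr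
  obtain ⟨g, hg⟩ := exists_linearEquiv_apply_eq (F := F[X] ⧸ Ideal.span {f})
    (v := e (Module.AEval'.of T v)) (by simpa using hv) hw'
  refine ⟨(Module.AEval'.of T).toAddEquiv.trans ((e.trans g).toAddEquiv.trans
    (Module.AEval'.of T').symm.toAddEquiv), ?_, fun u => ?_⟩
  · change (Module.AEval'.of T').symm (g (e (Module.AEval'.of T v))) = w
    rw [hg]; simp
  · change (Module.AEval'.of T').symm ((e.trans g) (Module.AEval'.of T (T u))) =
      T' ((Module.AEval'.of T').symm ((e.trans g) (Module.AEval'.of T u)))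
    rw [← Module.AEval'.X_smul_of, ← Module.AEval'.of_symm_X_smul,
      ← (tors T h).mk_smul, ← (tors T' h').mk_smul]
    exact congrArg _ ((e.trans g).map_smul _ _)

end

theorem orderOf_unitOfCoprime {a n : ℕ} (h : a.Coprime n) :
    orderOf (ZMod.unitOfCoprime a h) = orderOf (a : ZMod n) := by
  rw [← orderOf_units, ZMod.coe_unitOfCoprime]

theorem orderOf_eq_of_trans {p q : ℕ} [hp : Fact p.Prime] [hq : Fact q.Prime] (hpq : p ≠ q)
    {V : Type*} [AddCommGroup V] [Module (ZMod p) V] [Finite V] [Nontrivial V]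
    (T : Module.End (ZMod p) V) (hT : aeval T (cyclotomic q (ZMod p)) = 0)
    (ht : ∀ v w : V, v ≠ 0 → w ≠ 0 → ∃ (σ : V ≃ₗ[ZMod p] V) (k : ℕ), σ v = w ∧
      ∀ u, σ (T u) = (T ^ k) (σ u))
    (hk : ∀ k, 1 ≤ k → k < q → ∃ σ : V ≃ₗ[ZMod p] V, ∀ u, σ (T u) = (T ^ k) (σ u)) :
    orderOf (p : ZMod q) = q - 1 := by
  classical
  have hcop : p.Coprime q := (Nat.coprime_primes hp.out hq.out).2 hpq
  obtain ⟨g, hg, hgd, v, hv, hgv⟩ := exists_irr_factor_not_inj T _ (cyclotomic_ne_zero q _) hT
  have h0 := aeval_eq_zero_of_trans T ht hv hgv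
  have hdeg := natDegree_of_dvd_cyclotomic_of_irreducible (K := ZMod p) (p := p) (f := 1)
    (by simp) hcop hgd hg
  rw [orderOf_unitOfCoprime, pow_one] at hdeg
  rw [← hdeg]
  apply le_antisymm
  · have := natDegree_le_of_dvd hgd (cyclotomic_ne_zero q _)
    rwa [natDegree_cyclotomic, Nat.totient_prime hq.out] at this
  haveI : Fact (Irreducible g) := ⟨hg⟩
  haveI : NeZero (q : ZMod p) :=
    ⟨fun h => hpq ((Nat.prime_dvd_prime_iff_eq hp.out hq.out).1
      ((ZMod.natCast_eq_zero_iff q p).1 h))⟩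
  haveI : NeZero (q : AdjoinRoot g) := by
    simpa using! NeZero.of_injective (algebraMap (ZMod p) (AdjoinRoot g)).injective
  have hζ : IsPrimitiveRoot (AdjoinRoot.root g) q := by
    simpa [← isRoot_cyclotomic_iff] using! (AdjoinRoot.isRoot_root g).dvd
      (by simpa using! map_dvd (algebraMap (ZMod p) (AdjoinRoot g)) hgd)
  have hroot : ∀ k ∈ Finset.Ico 1 q, AdjoinRoot.root g ^ k ∈ (g.aroots (AdjoinRoot g)).toFinset := by
    intro k hk'
    rw [Finset.mem_Ico] at hk'
    obtain ⟨σ, hσ⟩ := hk k hk'.1 hk'.2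
    have h1 : aeval T (g.comp (X ^ k)) = 0 := by
      rw [← aeval_pow_eq]
      ext u
      obtain ⟨u, rfl⟩ := σ.surjective u
      have := semiconj_aeval (T := T) (T' := T ^ k) σ.toLinearMap hσ g u
      simp only [LinearEquiv.coe_coe] at this
      rw [← this, h0]; simp
    obtain ⟨c, hc⟩ := dvd_of_aeval_eq_zero hg h0 h1
    rw [Multiset.mem_toFinset, mem_aroots]
    refine ⟨hg.ne_zero, ?_⟩
    have := congrArg (aeval (AdjoinRoot.root g)) hc
    rw [aeval_comp, map_mul, AdjoinRoot.aeval_eq, AdjoinRoot.aeval_eq (p := g),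
      AdjoinRoot.mk_self, zero_mul] at this
    simpa using this
  have h2 := Finset.card_le_card_of_injOn (fun k => AdjoinRoot.root g ^ k) hroot (by
    intro a ha b hb hab
    simp only [Finset.coe_Ico, Set.mem_Ico] at ha hb
    exact hζ.pow_inj ha.2 hb.2 hab)
  rw [Nat.card_Ico] at h2
  refine h2.trans ((Multiset.toFinset_card_le _).trans ?_)
  exact (card_roots' _).trans (natDegree_map_le)

theorem irreducible_cyclotomic_of_orderOf {p q : ℕ} [hp : Fact p.Prime] [hq : Fact q.Prime]
    (hpq : p ≠ q) (h : orderOf (p : ZMod q) = q - 1) : Irreducible (cyclotomic q (ZMod p)) := by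
  refine ZMod.irreducible_of_dvd_cyclotomic_of_natDegree
    (fun hd => hpq ((Nat.prime_dvd_prime_iff_eq hp.out hq.out).1 hd)) dvd_rfl ?_
  rw [orderOf_unitOfCoprime, h, natDegree_cyclotomic, Nat.totient_prime hq.out]

theorem aeval_cyclotomic_eq_zero {F V : Type*} [Field F] [AddCommGroup V] [Module F V] {q : ℕ}
    [hq : Fact q.Prime] (T : Module.End F V) (h1 : T ^ q = 1) (h2 : ∀ v, T v = v → v = 0) :
    aeval T (cyclotomic q F) = 0 := by
  ext v
  apply h2
  have := congrArg (fun f => aeval T f v) (cyclotomic_prime_mul_X_sub_one F q)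
  simp only [mul_comm (cyclotomic q F), map_mul, map_sub, aeval_X, map_one, map_pow, h1,
    sub_self, Module.End.mul_apply, LinearMap.sub_apply, Module.End.one_apply,
    LinearMap.zero_apply] at this
  exact sub_eq_zero.1 this

end H5
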