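/- Tower DG (S4984), jobs FC and FB: the arithmetic covering of prime pairs for the types C and B. -/
import Cfsg.Agent.H53.DGSpec2

set_option autoImplicit false

namespace H5.DGFC

open H53.DG Cfsg Finset

/-- `q ^ (2 j) - 1`. -/
def ss (q j : ℕ) : ℕ := q ^ (2 * j) - 1

theorem ss_eq (q j : ℕ) : ss q j = (q ^ j - 1) * (q ^ j + 1) := by
  rw [ss, mul_comm 2, pow_mul, mul_comm, ← Nat.sq_sub_sq, one_pow]

theorem sv_eq (q : ℕ) {j : ℕ} (hj : 1 ≤ j) : sv q q j = ss q j := by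
  rw [sv, ss_eq, ← pow_succ, Nat.sub_add_cancel hj]

theorem ss_dvd (q : ℕ) {i j : ℕ} (h : i ∣ j) : ss q i ∣ ss q j :=
  Nat.pow_sub_one_dvd_pow_sub_one q (Nat.mul_dvd_mul_left 2 h)

theorem prime_NN {q n r : ℕ} (hr : r.Prime) (h : r ∣ NN q n) : ∃ j, 1 ≤ j ∧ j ≤ n ∧ r ∣ ss q j := by
  obtain ⟨j, hj, h⟩ := (Prime.dvd_finsetProd_iff hr.prime _).1 h
  exact ⟨j, (mem_Icc.1 hj).1, (mem_Icc.1 hj).2, h⟩

theorem pos_sub {q k : ℕ} (hq : 2 ≤ q) (hk : 1 ≤ k) : 0 < q ^ k - 1 :=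
  Nat.sub_pos_of_lt (Nat.one_lt_pow (by omega) hq)

theorem prod_sv (q a b : ℕ) : ∏ j ∈ Ioc a b, sv q q j = ∏ j ∈ Ioc a b, ss q j :=
  prod_congr rfl fun j hj => sv_eq q (by have := (mem_Ioc.1 hj).1; omega)

theorem x1 {q m D : ℕ} (hq : 2 ≤ q) (h : D * (q ^ (m + 1) - 1) = 1 * ∏ j ∈ Ioc 0 (m + 1), sv q q j) :
    D = (q ^ (m + 1) + 1) * ∏ j ∈ Ioc 0 m, ss q j := by
  refine Nat.eq_of_mul_eq_mul_right (pos_sub hq (Nat.le_add_left 1 m)) ?_
  rw [h, prod_sv, prod_Ioc_succ_top (Nat.zero_le m), ss_eq]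
  ring

theorem x2 {q m D : ℕ} (hq : 2 ≤ q) (h : D * (q ^ (m + 2) - 1) = q * ∏ j ∈ Ioc 1 (m + 3), sv q q j) :
    D = q * (q ^ (m + 2) + 1) * ss q (m + 3) * ∏ j ∈ Ioc 1 (m + 1), ss q j := by
  refine Nat.eq_of_mul_eq_mul_right (pos_sub hq (Nat.le_add_left 1 (m + 1))) ?_
  rw [h, prod_sv, prod_Ioc_succ_top (by omega : 1 ≤ m + 2), prod_Ioc_succ_top (by omega : 1 ≤ m + 1),
    ss_eq q (m + 1 + 1)]
  ring

theorem pair_dvd {r s d : ℕ} (hr : r.Prime) (hs : s.Prime) (hrs : r ≠ s) (h1 : r ∣ d) (h2 : s ∣ d) :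
    r * s ∣ d :=
  ((Nat.coprime_primes hr hs).2 hrs).mul_dvd_of_dvd_of_dvd h1 h2

/-- A prime dividing `c d` with `c ∣ 4`, where `2 c` divides it if the prime is `2`. -/
theorem dvd_of_four {r D d : ℕ} (hr : r.Prime) (h : r ∣ D) (h8 : 8 ∣ D) (hD : D ∣ 4 * d) : r ∣ d := by
  rcases hr.eq_two_or_odd' with rfl | ho
  · have := h8.trans hD
    omega
  · refine Nat.Coprime.dvd_of_dvd_mul_left ?_ (h.trans hD)
    exact (Nat.Coprime.pow_right 2 (Nat.coprime_two_right.2 ho) :)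

theorem eight_dvd {q : ℕ} (h : Odd q) : 8 ∣ ss q 1 := by
  obtain ⟨t, rfl⟩ := h
  obtain ⟨u, hu⟩ := Nat.even_mul_succ_self t
  refine ⟨u, ?_⟩
  have : (2 * t + 1) ^ (2 * 1) = 8 * u + 1 := by linear_combination 4 * hu
  rw [ss, this, Nat.add_sub_cancel]

section
variable {F : Type} [Field F] [Fintype F] [DecidableEq F] {V : Type} [AddCommGroup V] [Module F V]
  [Fintype V]

local notation "q" => Fintype.card F

theorem gen1 (gen : AGen) (S : FS F V) (hS : S.An) (ha : S.a = q) {n : ℕ} (hn : 2 ≤ n) (he : Even n)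
    (h2 : ¬ (q = 2 ∧ n ≤ 2)) : ∃ D, (S.ext n).Deg' D ∧ (3 ≤ n ∨ (n = 2 ∧ 4 ≤ q) → (S.ext n).Deg D) ∧
      ss q 1 ∣ D ∧ ∀ r : ℕ, r.Prime → r ∣ NN q n → r ∣ D := by
  obtain ⟨D, e, h1, h3⟩ := gen F V S hS 0 n 1 (by omega) h2 (by omega) (Or.inl rfl)
  rw [zero_add] at e h1 h3
  obtain ⟨m, rfl⟩ : ∃ m, n = m + 1 := ⟨n - 1, by omega⟩
  rw [ha] at e
  have hD := x1 Fintype.one_lt_card e
  have key : ∀ j, 1 ≤ j → j ≤ m → ss q j ∣ D := fun j a b =>
    hD ▸ Dvd.dvd.mul_left (dvd_prod_of_mem _ (mem_Ioc.2 ⟨a, b⟩)) _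
  refine ⟨D, h1, h3, key 1 le_rfl (by omega), fun r hr h => ?_⟩
  obtain ⟨j, a, b, h⟩ := prime_NN hr h
  rcases b.lt_or_eq with b | rfl
  · exact h.trans (key j a (by omega))
  · rw [ss_eq] at h
    rcases (Nat.Prime.dvd_mul hr).1 h with h | h
    · obtain ⟨t, ht⟩ := he
      refine Dvd.dvd.trans ?_ (key t (by omega) (by omega))
      rwa [ss, two_mul, ← ht]
    · exact hD ▸ h.mul_right _

theorem gen2 (gen : AGen) (r2 : AR2) (S : FS F V) (hS : S.An) (ha : S.a = q) {n : ℕ} (hn : 3 ≤ n)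
    (h2 : ¬ (q = 2 ∧ n ≤ 3)) : ∃ D, (S.ext n).Deg' D ∧ (4 ≤ n ∨ (n = 3 ∧ 4 ≤ q) → (S.ext n).Deg D) ∧
      ss q 1 ∣ D ∧ q ∣ D ∧ ∀ r : ℕ, r.Prime → r ∣ q * NN q n →
        (Odd n → r ∣ D) ∧ (r ∣ D ∨ (r ∣ q ^ (n - 1) - 1 ∧ ¬ r ∣ ss q 1)) := by
  obtain ⟨m, rfl⟩ : ∃ m, n = m + 3 := ⟨n - 3, by omega⟩
  have hst := r2 F V S hS (ha ▸ Fintype.one_lt_card)
  obtain ⟨D, e, h1, h3⟩ := gen F V S hS 1 (m + 2) S.a (by omega) (by omega) (by omega) (Or.inr hst)
  rw [(by omega : 1 + (m + 2) = m + 3)] at e h1 h3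
  rw [ha] at e
  have hD := x2 Fintype.one_lt_card e
  have key : ∀ j, 2 ≤ j → j ≤ m + 1 → ss q j ∣ D := fun j a b =>
    hD ▸ Dvd.dvd.mul_left (dvd_prod_of_mem _ (mem_Ioc.2 ⟨a, b⟩)) _
  have k3 : ss q (m + 3) ∣ D := hD ▸ (dvd_mul_left _ _).mul_right _
  have k1 : ss q 1 ∣ D := (ss_dvd q (one_dvd _)).trans k3
  have kq : q ∣ D := hD ▸ ((dvd_mul_right _ _).mul_right _).mul_right _
  have key' : ∀ j, 1 ≤ j → j ≤ m + 1 → ss q j ∣ D := fun j a b => by
    rcases a.lt_or_eq with a | rfl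
    exacts [key j a b, k1]
  refine ⟨D, h1, fun h => h3 (by omega), k1, kq, fun r hr h => ?_⟩
  have h4 : r ∣ D ∨ r ∣ q ^ (m + 2) - 1 := by
    rcases (Nat.Prime.dvd_mul hr).1 h with h | h
    · exact Or.inl (h.trans kq)
    obtain ⟨j, a, b, h⟩ := prime_NN hr h
    rcases b.lt_or_eq with b | rfl
    · rcases (Nat.le_of_lt_succ b).lt_or_eq with b | rfl
      · exact Or.inl (h.trans (key' j a (by omega)))
      · rw [ss_eq] at h
        rcases (Nat.Prime.dvd_mul hr).1 h with h | h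
        · exact Or.inr h
        · exact Or.inl (hD ▸ ((h.mul_left _).mul_right _).mul_right _)
    · exact Or.inl (h.trans k3)
  refine ⟨fun ho => h4.elim id fun h => ?_, ?_⟩
  · obtain ⟨t, ht⟩ := ho
    refine Dvd.dvd.trans ?_ (key' t (by omega) (by omega))
    rwa [ss, (by omega : 2 * t = m + 2)]
  · by_cases h5 : r ∣ ss q 1
    · exact Or.inl (h5.trans k1)
    · exact h4.imp id fun h => ⟨h, h5⟩

end

/-- The degree of `TS`. -/
theorem ts_eq {q n D : ℕ} (hq : 2 ≤ q)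
    (h : D * ((q ^ 2 - 1) * (q + 1)) = q * ((q ^ (2 * n) - 1) * (q ^ (2 * n - 2) - 1))) :
    q ∣ D ∧ ∀ r : ℕ, r.Prime → r ∣ q ^ (n - 1) - 1 → ¬ r ∣ ss q 1 → r ∣ D := by
  obtain ⟨A, hA⟩ : ss q 1 ∣ ss q n := ss_dvd q (one_dvd _)
  obtain ⟨B, hB⟩ : q + 1 ∣ ss q (n - 1) :=
    Dvd.dvd.trans (by rw [ss_eq, pow_one]; exact dvd_mul_left _ _) (ss_dvd q (one_dvd (n - 1)))
  have hD : D = q * A * B := by
    refine Nat.eq_of_mul_eq_mul_right (Nat.mul_pos (pos_sub hq one_le_two) (Nat.succ_pos q)) ?_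
    have e1 : q ^ (2 * n) - 1 = (q ^ 2 - 1) * A := hA
    have e2 : q ^ (2 * n - 2) - 1 = (q + 1) * B := by
      rw [← hB, ss, Nat.mul_sub]
    rw [Nat.succ_eq_add_one, h, e1, e2]
    ring
  refine ⟨hD ▸ (dvd_mul_right _ _).mul_right _, fun r hr h1 h2 => ?_⟩
  have h3 : r ∣ (q + 1) * B := by
    rw [← hB, ss_eq]
    exact h1.mul_right _
  rcases (Nat.Prime.dvd_mul hr).1 h3 with h | h
  · refine absurd ?_ h2
    rw [ss_eq, pow_one]
    exact h.mul_left _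
  · exact hD ▸ h.mul_left _

theorem jobFC (gen : AGen) (r2 : AR2) (ps : APS) (ts : ATS) : AFC := by
  intro F _ _ _ n hn h3 r s hr hs hrs h1 h2
  have hq : 2 ≤ Fintype.card F := Fintype.one_lt_card
  obtain ⟨T, hT, eT⟩ := ts F n hn
  have small : ∀ e : ℕ, Fintype.card F * NN (Fintype.card F) n ∣ T ^ e →
      ∃ d, ((zero F false).ext n).Deg d ∧ r * s ∣ d := fun e h =>
    ⟨T, hT, pair_dvd hr hs hrs (hr.dvd_of_dvd_pow (h1.trans h)) (hs.dvd_of_dvd_pow (h2.trans h))⟩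
  rcases Nat.even_or_odd n with he | ho
  swap
  · have hn3 : 3 ≤ n := by
      obtain ⟨t, rfl⟩ := ho
      omega
    by_cases hsm : n = 3 ∧ Fintype.card F ≤ 3
    · obtain ⟨rfl, hq3⟩ := hsm
      refine small 5 ?_
      generalize Fintype.card F = q at *
      interval_cases q
      · obtain rfl : T = 210 := by norm_num at eT; omega
        decide
      · obtain rfl : T = 5460 := by norm_num at eT; omega
        decide
    · obtain ⟨D, -, hD, -, -, h⟩ := gen2 gen r2 _ (zero_an F false) (zero_a_false F) hn3 (by omega)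
      exact ⟨D, hD (by omega), pair_dvd hr hs hrs ((h r hr h1).1 ho) ((h s hs h2).1 ho)⟩
  by_cases hsm : n = 2 ∧ Fintype.card F = 3
  · obtain ⟨rfl, hq3⟩ := hsm
    refine small 5 ?_
    rw [hq3] at eT ⊢
    obtain rfl : T = 60 := by norm_num at eT; omega
    decide
  wlog hrq : s ∣ Fintype.card F → r ∣ Fintype.card F generalizing r s
  · obtain ⟨d, hd, h⟩ := this s r hs hr hrs.symm h2 h1
      (fun e h => (small e h).imp fun d hd => ⟨hd.1, mul_comm r s ▸ hd.2⟩) (by tauto)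
    exact ⟨d, hd, mul_comm s r ▸ h⟩
  by_cases hr' : r ∣ Fintype.card F
  swap
  · obtain ⟨D, -, hD, -, h⟩ := gen1 gen _ (zero_an F false) (zero_a_false F) hn he (by omega)
    exact ⟨D, hD (by omega), pair_dvd hr hs hrs (h r hr (((Nat.Prime.dvd_mul hr).1 h1).resolve_left hr'))
      (h s hs (((Nat.Prime.dvd_mul hs).1 h2).resolve_left fun h => hr' (hrq h)))⟩
  obtain ⟨hqT, hT'⟩ := ts_eq hq eT
  rcases hn.lt_or_eq with hn3 | rfl
  · obtain ⟨D, -, hD, -, hqD, h⟩ := gen2 gen r2 _ (zero_an F false) (zero_a_false F) hn3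
      (by obtain ⟨t, rfl⟩ := he; omega)
    rcases (h s hs h2).2 with h | h
    · exact ⟨D, hD (by obtain ⟨t, rfl⟩ := he; omega), pair_dvd hr hs hrs (hr'.trans hqD) h⟩
    · exact ⟨T, hT, pair_dvd hr hs hrs (hr'.trans hqT) (hT' s hs h.1 h.2)⟩
  · have hq4 : 4 ≤ Fintype.card F := by omega
    have h4 : 2 ∣ Fintype.card F → 4 ∣ Fintype.card F := fun h => by
      obtain ⟨p, _, e, hp, he⟩ := FiniteField.card' F
      rw [he] at h hq4 ⊢
      obtain rfl := (Nat.prime_dvd_prime_iff_eq Nat.prime_two hp).1 (Nat.prime_two.dvd_of_dvd_pow h)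
      refine pow_dvd_pow 2 (?_ : 2 ≤ (e : ℕ))
      by_contra hlt
      have : (2 : ℕ) ^ (e : ℕ) ≤ 2 ^ 1 := Nat.pow_le_pow_right two_pos (by omega)
      omega
    obtain ⟨⟨d, -, hd, ed⟩, -⟩ := ps F PUnit (zero F false) (zero_an F false) 2 le_rfl
    rw [zero_a_false] at ed
    generalize Fintype.card F = q at *
    obtain ⟨t, rfl⟩ : ∃ t, q = t + 1 := ⟨q - 1, by omega⟩
    have ht : 0 < t := by omega
    have a2 : (t + 1) ^ 2 - 1 = t * (t + 2) := Nat.sub_eq_of_eq_add (by ring)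
    have a4 : (t + 1) ^ 4 - 1 = t * (t + 2) * ((t + 1) ^ 2 + 1) := Nat.sub_eq_of_eq_add (by ring)
    have eT' : T = (t + 1) * (t * ((t + 1) ^ 2 + 1)) := by
      refine Nat.eq_of_mul_eq_mul_right (by positivity : 0 < t * (t + 2) * (t + 1 + 1)) ?_
      norm_num only at eT
      rw [a2, a4] at eT
      rw [eT]
      ring
    have ed' : 2 * d = (t + 1) * (t + 2) ^ 2 := by
      refine Nat.eq_of_mul_eq_mul_right (by positivity : 0 < t * (t + 1)) ?_
      rw [a2, Nat.add_sub_cancel] at ed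
      norm_num only at ed
      linear_combination ed
    have half : ∀ x : ℕ, x.Prime → x ∣ 2 * d → (x = 2 → 4 ∣ 2 * d) → x ∣ d := fun x hx a b => by
      rcases hx.eq_two_or_odd' with rfl | ho
      · have := b rfl
        omega
      · exact (Nat.coprime_two_right.2 ho).dvd_of_dvd_mul_left a
    by_cases h5 : s ∣ t + 2
    · refine ⟨d, hd, pair_dvd hr hs hrs (half r hr (ed' ▸ hr'.mul_right _) ?_)
        (half s hs (ed' ▸ (h5.trans (dvd_pow_self _ two_ne_zero)).mul_left _) ?_)⟩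
      · rintro rfl
        exact ed' ▸ (h4 hr').mul_right _
      · rintro rfl
        exact ed' ▸ (pow_dvd_pow_of_dvd h5 2).mul_left _
    · refine ⟨T, hT, pair_dvd hr hs hrs (hr'.trans hqT) ?_⟩
      have eN : NN (t + 1) 2 = t * (t + 2) * (t * (t + 2) * ((t + 1) ^ 2 + 1)) := by
        rw [← a4, ← a2, NN, prod_Icc_succ_top one_le_two, Icc_self, prod_singleton]
        rfl
      rw [eN] at h2
      rw [eT']
      simp only [Nat.Prime.dvd_mul hs, h5, or_false] at h2 ⊢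
      rcases h2 with h | h | h | h
      exacts [Or.inl h, Or.inr (Or.inl h), Or.inr (Or.inl h), Or.inr (Or.inr h)]

theorem jobFB (gen : AGen) (r2 : AR2) (res : ARes) (bo : ABO) : AFB := by
  intro F _ _ _ h n hn r s hr hs hrs h1 h2
  have hq : 2 ≤ Fintype.card F := Fintype.one_lt_card
  have ho : Odd (Fintype.card F) := by
    rw [← Nat.not_even_iff_odd]
    intro he
    have := FiniteField.even_card_iff_char_two.2 (Nat.even_iff.1 he)
    have : CharP F 2 := this ▸ ringChar.charP F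
    exact h (CharTwo.two_eq_zero)
  have hq2 : Fintype.card F ≠ 2 := fun e => by
    rw [e] at ho
    exact absurd ho (by decide)
  obtain ⟨hres, -, g, hg, eg⟩ := res F F (one F h) (one_an F h) rfl n hn
  have hneg := ((bo F).1 h n hn).2.1
  have use : ∀ D, ((one F h).ext n).Deg' D → ss (Fintype.card F) 1 ∣ D → ∀ r s : ℕ, r.Prime → s.Prime →
      r ≠ s → r ∣ D → s ∣ D → ∃ d ∈ charDegrees ((one F h).ext n).PO, r * s ∣ d :=
    fun D hD h8 r s hr hs hrs a b => by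
      obtain ⟨d, hd, h4, -⟩ := hres D (Or.inr ⟨hD, hneg⟩)
      have h8' := (eight_dvd ho).trans h8
      exact ⟨d, hd, pair_dvd hr hs hrs (dvd_of_four hr a h8' h4) (dvd_of_four hs b h8' h4)⟩
  obtain ⟨D, hD, -, h8, hqD, hc⟩ := gen2 gen r2 _ (one_an F h) (one_a F h) hn (by omega)
  rcases Nat.even_or_odd n with he | hno
  swap
  · exact use D hD h8 r s hr hs hrs ((hc r hr h1).1 hno) ((hc s hs h2).1 hno)
  wlog hrq : s ∣ Fintype.card F → r ∣ Fintype.card F generalizing r s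
  · obtain ⟨d, hd, h⟩ := this s r hs hr hrs.symm h2 h1 (by tauto)
    exact ⟨d, hd, mul_comm s r ▸ h⟩
  by_cases hr' : r ∣ Fintype.card F
  swap
  · obtain ⟨D', hD', -, h8', h⟩ := gen1 gen _ (one_an F h) (one_a F h) (by omega : 2 ≤ n) he (by omega)
    exact use D' hD' h8' r s hr hs hrs (h r hr (((Nat.Prime.dvd_mul hr).1 h1).resolve_left hr'))
      (h s hs (((Nat.Prime.dvd_mul hs).1 h2).resolve_left fun h => hr' (hrq h)))
  rcases (hc s hs h2).2 with h3 | ⟨h3, h4⟩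
  · exact use D hD h8 r s hr hs hrs (hr'.trans hqD) h3
  rw [one_a] at eg
  generalize Fintype.card F = q at *
  have eg' : g * (2 * (q - 1)) = q * ((q ^ (n - 1) - 1) * (q ^ (n - 1) * q + 1)) := by
    refine Nat.eq_of_mul_eq_mul_right (by omega : 0 < q) ?_
    linear_combination eg
  have a1 : ss q 1 = (q - 1) * (q + 1) := by rw [ss_eq, pow_one]
  refine ⟨g, hg, pair_dvd hr hs hrs ?_ ?_⟩
  · refine ((Nat.Prime.dvd_mul hr).1 (eg' ▸ hr'.mul_right _)).resolve_right fun h5 => ?_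
    rcases (Nat.Prime.dvd_mul hr).1 h5 with h5 | h5
    · obtain rfl := (Nat.prime_dvd_prime_iff_eq hr Nat.prime_two).1 h5
      exact (Nat.not_even_iff_odd.2 ho) (even_iff_two_dvd.2 hr')
    · have := (Nat.dvd_sub_iff_right (by omega : 1 ≤ q) hr').1 h5
      exact hr.one_lt.ne' (Nat.dvd_one.1 this)
  · refine ((Nat.Prime.dvd_mul hs).1 (eg' ▸ (h3.mul_right _).mul_left _)).resolve_right fun h5 => h4 ?_
    rcases (Nat.Prime.dvd_mul hs).1 h5 with h5 | h5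
    · exact (h5.trans (by norm_num)).trans (eight_dvd ho)
    · exact a1 ▸ h5.mul_right _

end H5.DGFC
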