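/- Tower DG (S4984), job Hol: Harish-Chandra induction of a cuspidal character fixed by `w`. -/
import Cfsg.Agent.H53.DGSpec2
import Cfsg.Agent.H28.CharProd

set_option autoImplicit false

namespace H5.DGHol

open H53.DG Cfsg Matrix H28

section Grp

variable {G K : Type} [Group G] [Group K] {P : Subgroup G} (π : P →* K)

theorem mem_U (g : G) : g ∈ π.ker.map P.subtype ↔ ∃ hg : g ∈ P, π ⟨g, hg⟩ = 1 :=
  ⟨by rintro ⟨p, hp, rfl⟩; exact ⟨p.2, hp⟩, fun ⟨hg, h⟩ => ⟨⟨g, hg⟩, h, rfl⟩⟩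

theorem conj_U : ∀ p ∈ P, ∀ u ∈ π.ker.map P.subtype, p * u * p⁻¹ ∈ π.ker.map P.subtype := by
  rintro p hp _ ⟨u, hu, rfl⟩
  exact ⟨⟨p, hp⟩ * u * ⟨p, hp⟩⁻¹, π.normal_ker.conj_mem u hu _, rfl⟩

theorem mul_inv_U {p l : G} (hp : p ∈ P) (hl : l ∈ P) (e : π ⟨l, hl⟩ = π ⟨p, hp⟩) :
    p * l⁻¹ ∈ π.ker.map P.subtype ∧ l⁻¹ * p ∈ π.ker.map P.subtype :=
  ⟨⟨⟨p, hp⟩ * ⟨l, hl⟩⁻¹, by rw [SetLike.mem_coe, MonoidHom.mem_ker, map_mul, map_inv, e, mul_inv_cancel], rfl⟩,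
    ⟨⟨l, hl⟩⁻¹ * ⟨p, hp⟩, by rw [SetLike.mem_coe, MonoidHom.mem_ker, map_mul, map_inv, e, inv_mul_cancel], rfl⟩⟩

theorem pi_mul_inv {a b : G} (ha : a ∈ P) (hb : b ∈ P) :
    π ⟨a * b⁻¹, P.mul_mem ha (P.inv_mem hb)⟩ = π ⟨a, ha⟩ * (π ⟨b, hb⟩)⁻¹ := by
  rw [← map_inv, ← map_mul]
  rfl

theorem exists_lam {w : G} (hww : w * w ∈ P)
    (hl : ∀ p (hp : p ∈ P), ∃ l, ∃ hl : l ∈ P, π ⟨l, hl⟩ = π ⟨p, hp⟩ ∧ w * l * w⁻¹ ∈ P) (u : G) :
    ∃ lam : P, (∃ p ∈ P, ∃ p' ∈ P, w * u * w = p * w * p') →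
      ∃ v ∈ π.ker.map P.subtype, w * u * w = v * w * lam := by
  by_cases h : ∃ p ∈ P, ∃ p' ∈ P, w * u * w = p * w * p'
  · obtain ⟨p, hp, p', hp', e⟩ := h
    obtain ⟨l, hlP, hπl, h1⟩ := hl p hp
    have h2 : w⁻¹ * l * w ∈ P := by
      have := P.mul_mem (P.mul_mem (P.inv_mem hww) h1) hww
      convert this using 1
      group
    refine ⟨⟨_, P.mul_mem h2 hp'⟩, fun _ => ⟨p * l⁻¹, (mul_inv_U π hp hlP hπl).1, ?_⟩⟩
    rw [e]
    group
  · exact ⟨1, fun h' => absurd h' h⟩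

end Grp

section Kit

variable {F V : Type} [Field F] [AddCommGroup V] [Module F V] {S : FS F V} {k : ℕ}

theorem extI {g g' : (S.ext k).I} (h : ∀ x v y, g.1 (x, v, y) = g'.1 (x, v, y)) : g = g' :=
  Subtype.ext (LinearEquiv.ext fun z => h z.1 z.2.1 z.2.2)

theorem mul_app (g g' : (S.ext k).I) (z : EV F k V) : (g * g').1 z = g.1 (g'.1 z) := rfl

/-- The inverse transpose. -/
def tinv (a : GL (Fin k) F) : GL (Fin k) F :=
  ⟨(a⁻¹).1ᵀ, a.1ᵀ, by rw [← transpose_mul, Units.mul_inv, transpose_one],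
    by rw [← transpose_mul, Units.inv_mul, transpose_one]⟩

theorem mem_P [Finite F] {g : (S.ext k).I} (h : ∀ x, (g.1 (x, 0, 0)).2 = 0) : g ∈ S.P k := by
  have hi : Function.Injective fun x : Fin k → F => (g.1 (x, 0, 0)).1 := fun x x' e => by
    have : g.1 (x, 0, 0) = g.1 (x', 0, 0) := Prod.ext e ((h x).trans (h x').symm)
    exact congrArg Prod.fst (g.1.injective this)
  refine fun z => ⟨fun hz => ?_, fun hz => ?_⟩
  · obtain ⟨x, hx⟩ := Finite.surjective_of_injective hi (g.1 z).1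
    have : g.1 (x, 0, 0) = g.1 z := Prod.ext hx ((h x).trans hz.symm)
    rw [← g.1.injective this]
    rfl
  · have : z = (z.1, 0, 0) := Prod.ext rfl hz
    rw [this]
    exact h _

theorem pi_fst {π : S.P k →* GL (Fin k) F × S.I} (hπ : S.IsPi k π) (g : S.P k)
    {A : Matrix (Fin k) (Fin k) F} (h : ∀ x, (g.1.1 (x, 0, 0)).1 = A *ᵥ x) : (π g).1.1 = A := by
  refine ext_iff_mulVec.2 fun x => ?_
  rw [← h, (hπ g).1]

theorem pi_snd {π : S.P k →* GL (Fin k) F × S.I} (hπ : S.IsPi k π) (g : S.P k)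
    (h : ∀ v, (g.1.1 (0, v, 0)).2.1 = v) : (π g).2 = 1 := by
  refine Subtype.ext (LinearEquiv.ext fun v => ?_)
  obtain ⟨x, hx⟩ := (hπ g).2 v
  have := h v
  rw [hx] at this
  exact this

theorem w_mul_l {M a : GL (Fin k) F} {h : S.I} {w l l' : (S.ext k).I} (hw : S.IsW k M w)
    (hl : S.IsL k a h l) (hl' : S.IsL k (M * tinv a * M⁻¹) h l') : w * l = l' * w := by
  refine extI fun x v y => ?_
  rw [mul_app, mul_app, hl, hw, hw, hl']
  refine Prod.ext ?_ (Prod.ext rfl ?_)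
  · simp only [mulVec_mulVec, Units.val_mul, mul_assoc, Units.inv_mul, mul_one]
    rfl
  · have : ((M * tinv a * M⁻¹)⁻¹ : GL (Fin k) F).1 = M.1 * a.1ᵀ * (M⁻¹).1 := by
      rw [_root_.mul_inv_rev, _root_.mul_inv_rev, inv_inv, Units.val_mul, Units.val_mul, mul_assoc]
      rfl
    simp only [this]
    simp only [mulVec_smul, mulVec_mulVec, transpose_mul, transpose_transpose, mul_assoc]
    rw [← transpose_mul, Units.inv_mul, transpose_one, mul_one]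

theorem isU_data {u u' : Fin k → V} {φ φ' : Matrix (Fin k) (Fin k) F} {g : (S.ext k).I}
    (h : S.IsU k u φ g) (h' : S.IsU k u' φ' g) : u = u' ∧ φ = φ' := by
  classical
  have e : ∀ y, φ *ᵥ y = φ' *ᵥ y ∧ ∑ i, y i • u i = ∑ i, y i • u' i := fun y => by
    have := (h 0 0 y).symm.trans (h' 0 0 y)
    simpa [Prod.ext_iff] using this
  refine ⟨funext fun i => ?_, ext_iff_mulVec.2 fun y => (e y).1⟩
  simpa [Pi.single_apply] using (e (Pi.single i 1)).2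

end Kit

section Main

variable {F V : Type} [Field F] [AddCommGroup V] [Module F V] {S : FS F V} {k : ℕ}

/-- The value of `π` at the `lam` of the two-dimensional Hecke algebra. -/
theorem pi_lam {π : S.P k →* GL (Fin k) F × S.I} (hπ : S.IsPi k π) {M : GL (Fin k) F}
    {w g g' : (S.ext k).I} (hw : S.IsW k M w) {u u' : Fin k → V} {φ φ' : Matrix (Fin k) (Fin k) F}
    (hg : S.IsU k u φ g) (hg' : S.IsU k u' φ' g') (l : S.P k) (e : w * g * w = g' * w * l) :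
    (π l).1.1 = S.ε • (φ * (M⁻¹).1ᵀ) ∧ IsUnit φ ∧ ∀ v, (π l).2.1 v = S.hol k u φ v := by
  set N : Matrix (Fin k) (Fin k) F := S.ε • (M⁻¹).1ᵀ with hN
  have hNu : IsUnit N := by
    refine IsUnit.of_mul_eq_one (S.ε • M.1ᵀ) ?_
    rw [hN, smul_mul_smul_comm, S.ε_mul_self, ← transpose_mul, Units.mul_inv, transpose_one, one_smul]
  have hNi : Function.Injective N.mulVec := mulVec_injective_iff_isUnit.2 hNu
  have hw' : ∀ x v y, w.1 (x, v, y) = (M.1 *ᵥ y, v, N *ᵥ x) := fun x v y => by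
    rw [hw, hN, smul_mulVec]
  have e1 : ∀ z, N *ᵥ (φ *ᵥ (N *ᵥ z)) = N *ᵥ ((π l).1.1 *ᵥ z) ∧
      ∑ i, (N *ᵥ z) i • u i = ∑ i, (N *ᵥ ((π l).1.1 *ᵥ z)) i • u' i := fun z => by
    have := congrArg (fun t : (S.ext k).I => t.1 (z, 0, 0)) e
    simp only [mul_app] at this
    rw [(hπ l).1, hw', hw', hg, hg', hw'] at this
    simp only [Prod.ext_iff, mulVec_zero, zero_add, map_zero, LinearMap.zero_apply] at this
    refine ⟨?_, this.2.1⟩
    have h0 : (fun _ : Fin k => (0 : F)) = 0 := rfl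
    simpa [h0] using this.2.2
  have ea : (π l).1.1 = φ * N := ext_iff_mulVec.2 fun z => by
    rw [← mulVec_mulVec]
    exact (hNi (e1 z).1).symm
  have hφ : IsUnit φ := isUnit_of_mul_isUnit_left (ea ▸ (π l).1.isUnit)
  refine ⟨by rw [ea, hN, Matrix.mul_smul], hφ, fun v => ?_⟩
  obtain ⟨x, hx⟩ := (hπ l).2 v
  have := congrArg (fun t : (S.ext k).I => t.1 (0, v, 0)) e
  simp only [mul_app] at this
  rw [hx, hw', hw', hg, hg', hw'] at this
  simp only [Prod.ext_iff, mulVec_zero, zero_add, Pi.zero_apply, zero_smul, Finset.sum_const_zero,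
    add_zero, zero_sub] at this
  obtain ⟨-, h2, h3⟩ := this
  have hx' : x = -fun i => S.B v (u i) := (hNi h3).symm
  obtain ⟨z, hz⟩ := (mulVec_surjective_iff_isUnit.2 hNu) (φ⁻¹ *ᵥ fun i => S.B v (u i))
  have h4 := (e1 z).2
  rw [ea, ← mulVec_mulVec, hz, mulVec_mulVec _ φ, mul_nonsing_inv _ ((isUnit_iff_isUnit_det _).1 hφ),
    one_mulVec] at h4
  rw [FS.hol, h4]
  rw [hx', mulVec_neg] at h2
  simp only [Pi.neg_apply, neg_smul, Finset.sum_neg_distrib] at h2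
  rw [← sub_eq_add_neg] at h2
  exact (sub_eq_iff_eq_add.1 h2.symm)

end Main

set_option maxHeartbeats 1600000 in
theorem jobHol (mk : JobMK) (t2 : JobT2) (par : APar) (m1 : AM1) (m2 : AM2) : AHol := by
  intro F _ _ _ V _ _ _ S k M σ τ hσ hτ hc hle hk hM1 hM2
  classical
  obtain ⟨⟨π, hπ⟩, hW, hL, hUe, -, hP⟩ := par F V S k
  obtain ⟨hsur, hLP, hUP, hLw, hPw⟩ := hP π hπ
  obtain ⟨w, hw⟩ := hW M
  set ρ : S.P k → ℂ := fun p => σ (π p).1 * τ (π p).2 with hρ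
  have hρi : IsIrrCharacter (S.P k) ρ := (hσ.prod hτ).comp_surjective π hsur
  have hρ1 : ρ 1 = σ 1 * τ 1 := by simp [hρ]
  set U : Subgroup (S.ext k).I := π.ker.map (S.P k).subtype with hU
  have mU := mem_U π
  have mU' : ∀ g, g ∈ U ↔ ∃ u φ, S.Adm k u φ ∧ S.IsU k u φ g := fun g => (mU g).trans (hUP g)
  have hww : w * w ∈ S.P k := mem_P fun x => by
    rw [mul_app, hw, hw]
    simp
  have hwl : ∀ a h l, S.IsL k a h l → ∃ hl : w * l * w⁻¹ ∈ S.P k,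
      π ⟨_, hl⟩ = (M * tinv a * M⁻¹, h) := fun a h l hl => by
    obtain ⟨l', hl'⟩ := hL (M * tinv a * M⁻¹) h
    have : w * l * w⁻¹ = l' := by rw [w_mul_l hw hl hl', mul_inv_cancel_right]
    simp only [this]
    exact hLP _ _ _ hl'
  have hlam := exists_lam π hww fun p hp => by
    obtain ⟨l, hl⟩ := hL (π ⟨p, hp⟩).1 (π ⟨p, hp⟩).2
    obtain ⟨hlP, hπl⟩ := hLP _ _ _ hl
    exact ⟨l, hlP, hπl, (hwl _ _ _ hl).1⟩
  choose lam hlam using hlam
  set T : Finset (S.ext k).I :=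
    Finset.univ.filter fun u => u ∈ U ∧ ∃ p ∈ S.P k, ∃ p' ∈ S.P k, w * u * w = p * w * p' with hT
  have mT : ∀ u, u ∈ T ↔ u ∈ U ∧ ∃ p ∈ S.P k, ∃ p' ∈ S.P k, w * u * w = p * w * p' := fun u => by
    simp [hT]
  obtain ⟨χ₁, χ₂, a₁, a₂, h1, h2, hind, e1, e2, e3⟩ := t2 (S.ext k).I (S.P k) U ρ w T lam hρi
    (Subgroup.map_subtype_le _)
    (conj_U π)
    (fun u hu => by
      obtain ⟨_, hu⟩ := (mU u).1 hu
      have : π u = 1 := hu
      simp [hρ, this])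
    (fun h => by
      obtain ⟨i⟩ : Nonempty (Fin k) := ⟨⟨0, Nat.pos_of_ne_zero hk⟩⟩
      have := (h (0, 0, Pi.single i 1)).1 (by rw [hw]; simp)
      simpa using congrFun (congrArg Prod.snd this) i)
    ⟨hww, by
      have a1 : (π ⟨w * w, hww⟩).1.1 = S.ε • (M.1 * (M⁻¹).1ᵀ) := pi_fst hπ _ fun x => by
        simp only [mul_app]
        rw [hw, hw, mulVec_smul, mulVec_mulVec, smul_mulVec]
      have a2 : (π ⟨w * w, hww⟩).2 = 1 := pi_snd hπ _ fun v => by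
        simp only [mul_app]
        rw [hw, hw]
      rw [hρ1, ← hM2, ← a1, xm_apply, ← a2]⟩
    (fun p hp => by
      obtain ⟨l, hl⟩ := hL (π ⟨p, hp⟩).1 (π ⟨p, hp⟩).2
      obtain ⟨hlP, hπl⟩ := hLP _ _ _ hl
      obtain ⟨h1, hπ1⟩ := hwl _ _ _ hl
      refine ⟨l, hlP, l⁻¹ * p, (mul_inv_U π hp hlP hπl).2,
        (mul_inv_cancel_left _ _).symm, (S.P k).mul_mem h1 ((S.P k).inv_mem hlP), ?_⟩
      have := pi_mul_inv π h1 hlP
      rw [hπl, hπ1, Prod.inv_mk, Prod.mk_mul_mk, mul_inv_cancel] at this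
      rw [hρ1, ← hM1 (π ⟨p, hp⟩).1]
      simp only [hρ, this]
      rw [← xm_apply σ]
      rfl)
    (fun u hu h => by
      obtain ⟨hu', hu⟩ := (mU u).1 hu
      obtain ⟨a, h, hl⟩ := hLw M w hw u hu' h
      obtain ⟨_, e⟩ := hLP _ _ _ hl
      obtain ⟨rfl, rfl⟩ := Prod.mk.inj (e.symm.trans hu)
      exact extI fun x v y => by rw [hl]; simp)
    (fun x hx h => by
      have h3 : ∃ z, z ≠ 0 ∧ (x.1 (z, 0, 0)).2.2 = 0 := by
        by_contra hn
        push Not at hn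
        obtain ⟨p, hp, p', hp', e⟩ := (hPw M w hw x).2 fun z hz => by
          by_contra hz0
          exact hn z hz0 hz
        exact h p hp p' hp' e
      by_cases h4 : (∃ z, z ≠ 0 ∧ (x.1 (z, 0, 0)).2 = 0) ∨ ∃ z, (x.1 (z, 0, 0)).2.2 ≠ 0
      · exact m1 F V S k π hπ σ τ hσ.isCharacter hτ.isCharacter hc x hx h3 h4
      · push Not at h4
        exact m2 F V S k π hπ σ τ hσ.isCharacter hτ.isCharacter hc hle hk x h4.2 fun z hz => by
          by_contra hz0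
          exact h4.1 z hz0 hz)
    mT (fun u hu => hlam u ((mT u).1 hu).2)
  obtain ⟨-, -, hdeg, hneg⟩ := mk (S.ext k).I (S.P k) ρ hρi
  have hgd : ∀ d : (Fin k → V) × Matrix (Fin k) (Fin k) F, ∃ g, S.Adm k d.1 d.2 → S.IsU k d.1 d.2 g :=
    fun d => by
      by_cases h : S.Adm k d.1 d.2
      · exact (hUe _ _ h).imp fun _ hg _ => hg
      · exact ⟨1, fun h' => absurd h' h⟩
  choose gd hgd using hgd
  have hval : ∀ u φ g, S.IsU k u φ g → g ∈ T → (π (lam g)).1.1 = S.ε • (φ * (M⁻¹).1ᵀ) ∧ IsUnit φ ∧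
      ∀ v, (π (lam g)).2.1 v = S.hol k u φ v := fun u φ g hg hgT => by
    obtain ⟨v, hv, e⟩ := hlam g ((mT g).1 hgT).2
    obtain ⟨u', φ', -, hv⟩ := (mU' v).1 hv
    exact pi_lam hπ hw hg hv _ e
  have hin : ∀ u φ g, S.Adm k u φ → S.IsU k u φ g → IsUnit φ → g ∈ T := fun u φ g ha hg hφ => by
    refine (mT g).2 ⟨(mU' g).2 ⟨u, φ, ha, hg⟩, (hPw M w hw _).2 fun z hz => ?_⟩
    simp only [mul_app] at hz
    rw [hw, hg, hw] at hz
    have hε : S.ε ≠ 0 := left_ne_zero_of_mul_eq_one S.ε_mul_self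
    have h0 : (fun _ : Fin k => (0 : F)) = 0 := rfl
    have hi : Function.Injective ((M⁻¹).1ᵀ * φ * (M⁻¹).1ᵀ).mulVec :=
      mulVec_injective_iff_isUnit.2 (((tinv M).isUnit.mul hφ).mul (tinv M).isUnit)
    refine hi ?_
    simp only [mulVec_zero, zero_add, map_zero, LinearMap.zero_apply, h0, sub_zero, mulVec_smul,
      mulVec_mulVec, smul_eq_zero, hε, false_or] at hz
    rw [mulVec_zero, mul_assoc]
    exact hz
  refine ⟨χ₁, χ₂, a₁, a₂, h1, h2, ?_, e1, ?_, ?_, fun u φ ha hφ => ?_, fun hn => ?_⟩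
  · rw [← hρ1, ← hdeg, hind]
    rfl
  · rw [e2]
    congr 2
    refine (Nat.card_congr (Equiv.ofBijective
      (fun d : {d : (Fin k → V) × Matrix (Fin k) (Fin k) F // S.Adm k d.1 d.2} =>
        (⟨gd d.1, (mU' _).2 ⟨_, _, d.2, hgd _ d.2⟩⟩ : U)) ⟨fun d d' e => ?_, fun g => ?_⟩)).symm
    · have e' : gd d.1 = gd d'.1 := congrArg Subtype.val e
      have := isU_data (hgd _ d.2) (e' ▸ hgd _ d'.2)
      exact Subtype.ext (Prod.ext this.1 this.2)
    · obtain ⟨u, φ, ha, hg⟩ := (mU' _).1 g.2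
      exact ⟨⟨(u, φ), ha⟩, Subtype.ext (extI fun x v y => (hgd (u, φ) ha x v y).trans (hg x v y).symm)⟩
  · rw [← hρ1, e3, ← Finset.sum_filter_of_ne
      (p := fun d : (Fin k → V) × Matrix (Fin k) (Fin k) F => IsUnit d.2)]
    · refine (Finset.sum_bij (fun d _ => gd d) (fun d hd => ?_) (fun d hd d' hd' e => ?_)
        (fun g hg => ?_) fun d hd => ?_).symm
      · simp only [Finset.mem_filter, Finset.mem_univ, true_and] at hd
        exact hin _ _ _ hd.1 (hgd _ hd.1) hd.2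
      · simp only [Finset.mem_filter, Finset.mem_univ, true_and] at hd hd'
        have := isU_data (hgd _ hd.1) (e ▸ hgd _ hd'.1)
        exact Prod.ext this.1 this.2
      · obtain ⟨u, φ, ha, hg'⟩ := (mU' _).1 ((mT g).1 hg).1
        refine ⟨(u, φ), ?_, extI fun x v y => (hgd (u, φ) ha x v y).trans (hg' x v y).symm⟩
        simp only [Finset.mem_filter, Finset.mem_univ, true_and]
        exact ⟨ha, (hval _ _ _ hg' hg).2.1⟩
      · simp only [Finset.mem_filter, Finset.mem_univ, true_and] at hd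
        obtain ⟨a1, -, a2⟩ := hval _ _ _ (hgd _ hd.1) (hin _ _ _ hd.1 (hgd _ hd.1) hd.2)
        rw [← a1, xm_apply, ← funext a2, FS.xt_apply]
    · intro d _ hd
      by_contra hn
      refine hd ?_
      rw [xm, Function.extend_apply', Pi.zero_apply, zero_mul]
      rintro ⟨a, ha⟩
      refine hn (isUnit_of_mul_isUnit_left (y := S.ε • (M⁻¹).1ᵀ) ?_)
      rw [Matrix.mul_smul, ← ha]
      exact a.isUnit
  · obtain ⟨g, hg⟩ := hUe _ _ ha
    exact ⟨_, (hval _ _ _ hg (hin _ _ _ ha hg hφ)).2.2⟩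
  · have hz : (S.ext k).neg ∈ S.P k := fun z => by simp
    have hzc : (S.ext k).neg ∈ Subgroup.center (S.ext k).I := Subgroup.mem_center_iff.2 fun g =>
      extI fun x v y => by simp only [mul_app, FS.neg_apply, map_neg]
    have a1 : (π ⟨_, hz⟩).1 = -1 := Units.ext (pi_fst hπ _ fun x => by simp [neg_mulVec])
    have a2 : (π ⟨_, hz⟩).2 = S.neg := Subtype.ext (LinearEquiv.ext fun v => by
      obtain ⟨x, hx⟩ := (hπ ⟨_, hz⟩).2 v
      simpa using (congrArg (fun t => t.2.1) hx).symm)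
    have a3 : ρ ⟨_, hz⟩ = ρ 1 := by rw [hρ1, ← hn, ← a1, ← a2]
    exact ⟨hneg ⟨_, hz⟩ hzc a3 _ _ h1.isCharacter h2.isCharacter hind,
      hneg ⟨_, hz⟩ hzc a3 _ _ h2.isCharacter h1.isCharacter (hind.trans (add_comm _ _))⟩

end H5.DGHol
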