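/- E7MAX tower (S5934), slot E7M-SC: counting in the preimage of a subspace under `φ`. -/
import Cfsg.Agent.H36.E7MSpec

set_option autoImplicit false

namespace H5.E7MSC
open Cfsg.Lie Module H36.E7M
open scoped commutatorElement

/-- the fibres of an additive map with kernel `{1, c}` -/
theorem fib {K A : Type*} [Group K] [AddCommGroup A] (R : Subgroup K) (f : K → A) (c : K)
    (hc : c ∈ R) (add : ∀ q ∈ R, ∀ q' ∈ R, f (q * q') = f q + f q')
    (ker : ∀ q ∈ R, f q = 0 ↔ q = 1 ∨ q = c) {a b : K} (ha : a ∈ R) (hb : b ∈ R) :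
    f a = f b ↔ a = b ∨ a = b * c := by
  have h1 : f a = f b + f (b⁻¹ * a) := by
    rw [← add b hb _ (mul_mem (inv_mem hb) ha), mul_inv_cancel_left]
  constructor
  · intro h
    have h2 : f (b⁻¹ * a) = 0 := by
      rw [h] at h1; exact (add_eq_left.1 h1.symm)
    rcases (ker _ (mul_mem (inv_mem hb) ha)).1 h2 with e | e
    · left; rw [inv_mul_eq_one] at e; exact e.symm
    · right; rw [← e, mul_inv_cancel_left]
  · rintro (rfl | rfl)
    · rfl
    · rw [add b hb c hc, (ker c hc).2 (Or.inr rfl), add_zero]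

theorem cnt {K A : Type*} [Group K] [AddCommGroup A] [Finite A] (R : Subgroup K) (f : K → A) (c : K)
    (hc : c ∈ R) (c1 : c ≠ 1) (add : ∀ q ∈ R, ∀ q' ∈ R, f (q * q') = f q + f q')
    (ker : ∀ q ∈ R, f q = 0 ↔ q = 1 ∨ q = c) (sur : ∀ v, ∃ q ∈ R, f q = v) (T : Set A) :
    {q | q ∈ R ∧ f q ∈ T}.ncard = 2 * T.ncard := by
  choose s hs hf using sur
  have fc : ∀ v, f (s v * c) = v := fun v => by
    rw [add _ (hs v) c hc, (ker c hc).2 (Or.inr rfl), add_zero, hf]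
  have e : {q | q ∈ R ∧ f q ∈ T} = s '' T ∪ (fun v => s v * c) '' T := by
    ext q
    constructor
    · rintro ⟨h1, h2⟩
      rcases (fib R f c hc add ker h1 (hs (f q))).1 (hf _).symm with h | h
      · exact Or.inl ⟨_, h2, h.symm⟩
      · exact Or.inr ⟨_, h2, h.symm⟩
    · rintro (⟨v, hv, rfl⟩ | ⟨v, hv, rfl⟩)
      · exact ⟨hs v, by rwa [hf]⟩
      · exact ⟨mul_mem (hs v) hc, by rwa [fc]⟩
  have i1 : Function.Injective s := Function.LeftInverse.injective hf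
  have i2 : Function.Injective fun v => s v * c := Function.LeftInverse.injective (g := f) fc
  rw [e, Set.ncard_union_eq _ (T.toFinite.image _) (T.toFinite.image _),
    Set.ncard_image_of_injective _ i1, Set.ncard_image_of_injective _ i2, two_mul]
  rw [Set.disjoint_left]
  rintro _ ⟨v, -, rfl⟩ ⟨w, -, h⟩
  have h1 : w = v := by rw [← fc w, ← hf v]; exact congrArg f h
  subst h1
  exact c1 (mul_eq_left.1 h)

theorem jobSC : JobSC := by
  intro p phi form Y W pre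
  obtain ⟨add, ker, sur, -, -⟩ := phi
  have z0 : φ z = 0 := (ker z z_mem_Q).2 (Or.inr rfl)
  have zY : z ∈ Y := (pre z z_mem_Q).2 (z0 ▸ W.zero_mem)
  have rv : ∀ q ∈ Q, φ q ∈ RV → q ∈ D ∧ q ≠ z := by
    rintro q hq ⟨a, aQ, aD, az, e⟩
    rcases (fib Q φ z z_mem_Q add ker hq aQ).1 e.symm with h | h
    · rw [h]; exact ⟨aD, az⟩
    · have := (p.col _).1 (p.line a ((p.col a).2 ⟨aD, aQ, az⟩)).1
      rw [h]; exact ⟨this.1, this.2.2⟩
  refine ⟨?_, ?_, ?_, ?_, ?_⟩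
  · have h1 : nQ Y = {q | q ∈ Q ∧ φ q ∈ (W : Set V)}.ncard := by
      rw [nQ, ← Nat.card_coe_set_eq]
      refine Nat.card_congr (Equiv.subtypeEquivRight fun q => ?_)
      exact ⟨fun h => ⟨h.2, (pre q h.2).1 h.1⟩, fun h => ⟨(pre q h.1).2 h.2, h.1⟩⟩
    rw [h1, cnt Q φ z z_mem_Q p.z_ne add ker sur, ← Nat.card_coe_set_eq, pow_succ, mul_comm]
    congr 1
    have := Module.natCard_eq_pow_finrank (K := F) (V := W)
    rw [Nat.card_zmod] at this
    exact this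
  · have h1 : {a | a ∈ Y ∧ a ∈ Q ∧ a ∈ D} = insert z {q | q ∈ Q ∧ φ q ∈ RV ∩ (W : Set V)} := by
      ext a
      constructor
      · rintro ⟨h1, h2, h3⟩
        by_cases e : a = z
        · exact Or.inl e
        · exact Or.inr ⟨h2, ⟨a, h2, h3, e, rfl⟩, (pre a h2).1 h1⟩
      · rintro (rfl | ⟨h1, h2, h3⟩)
        · exact ⟨zY, z_mem_Q, z_mem_D⟩
        · exact ⟨(pre a h1).2 h3, h1, (rv a h1 h2).1⟩
    rw [rho, h1, Set.ncard_insert_of_notMem (fun h => (rv z z_mem_Q h.2.1).2 rfl) (Set.toFinite _),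
      cnt Q φ z z_mem_Q p.z_ne add ker sur]
  · intro nd a aY aQ a1 az
    obtain ⟨v, hv, e⟩ := nd (φ a) ((pre a aQ).1 aY) fun h => ((ker a aQ).1 h).elim a1 az
    obtain ⟨w, wQ, rfl⟩ := sur v
    exact ⟨w, (pre w wQ).2 hv, wQ, form a aQ w wQ e⟩
  · rintro ⟨_, ⟨a, aQ, aD, az, rfl⟩, h⟩
    exact ⟨a, (pre a aQ).2 h, aQ, aD, az⟩
  · intro h a aY aQ aD
    by_contra az
    have : φ a ∈ RV ∩ (W : Set V) := ⟨⟨a, aQ, aD, az, rfl⟩, (pre a aQ).1 aY⟩
    rw [h] at this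
    exact this

end H5.E7MSC
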