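import Cfsg.Agent.H11.FBSpec

/-! Fixed points and normaliser of an element of prime order of the Frobenius complement. -/

set_option autoImplicit false

namespace H5.FBTH1

open MulAction Subgroup H11.FB

universe u v

theorem orb_card {G X : Type*} [Group G] [MulAction G X] (H : Subgroup G) (w : X) :
    (orbit H w).ncard * Nat.card (H ⊓ stabilizer G w : Subgroup G) = Nat.card H := by
  rw [← index_stabilizer, ← Subgroup.index_mul_card (stabilizer H w)]
  congr 1
  exact Nat.card_congr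
    { toFun := fun x => ⟨⟨x.1, x.2.1⟩, x.2.2⟩
      invFun := fun x => ⟨x.1.1, x.1.2, x.2⟩
      left_inv := fun _ => rfl
      right_inv := fun _ => rfl }

theorem fp_zpowers {G X : Type*} [Group G] [MulAction G X] (h : G) :
    fixedPoints (zpowers h) X = fixedBy X h := by
  ext ω
  constructor
  · intro e
    exact e ⟨h, mem_zpowers h⟩
  · intro e m
    exact (zpowers_le.2 (show h ∈ stabilizer G ω from e)) m.2

theorem cj_zpowers {G : Type u} [Group G] (g h : G) : cj g (zpowers h) = zpowers (g * h * g⁻¹) :=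
  MonoidHom.map_zpowers _ _

theorem ord_conj {G : Type*} [Group G] (g h : G) : orderOf (g * h * g⁻¹) = orderOf h :=
  (MulAut.conj g).orderOf_eq h

theorem jobTH1 : JobTH1.{u, v} := by
  intro ty G Ω _ _ _ _ _ a b c d K H hy hodd fh h hh hp
  have f := hy.fr
  have h1 : h ≠ 1 := fun e => hp.ne_one (orderOf_eq_one_iff.2 e)
  have hU : zpowers h ≤ H := zpowers_le.2 hh
  have nl : ∀ g ∈ L4 G a b c d, g ∈ normalizer (zpowers h : Set G) ↔ g ∈ H := by
    intro g hg
    constructor
    · intro hn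
      exact f.cenH h hh h1 g hg (hU ((mem_normalizer_iff.1 hn h).1 (mem_zpowers h)))
    · intro hn
      refine mem_normalizer_fintype ?_
      rintro _ ⟨i, rfl⟩
      have := (zpowers h).zpow_mem (fh.nrm h hh hp g hn) i
      rwa [conj_zpow] at this
  have wc : ∀ g : G, cj g (zpowers h) ≤ L4 G a b c d →
      ∃ l ∈ L4 G a b c d, cj g (zpowers h) = cj l (zpowers h) := by
    intro g hg
    have m : g * h * g⁻¹ ∈ L4 G a b c d := hg (conj_mem_cj (mem_zpowers h))
    have o := ord_conj g h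
    have nK : g * h * g⁻¹ ∉ K := by
      refine f.not_mem_K (fun e => hp.ne_one (by rw [← o, e, orderOf_one])) ?_
      rw [o]
      exact Nat.Coprime.coprime_dvd_left (orderOf_dvd_natCard H hh) f.cop.symm
    obtain ⟨k, hk, e⟩ := f.cjH _ m nK
    have o2 : orderOf (k * (g * h * g⁻¹) * k⁻¹) = orderOf h := by rw [ord_conj, o]
    have m2 := fh.uniq h hh _ e hp o2
    refine ⟨k⁻¹, (L4 G a b c d).inv_mem (f.Kle hk), ?_⟩
    refine eq_of_le_of_card_ge ?_ (by rw [card_cj, card_cj])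
    rw [cj_zpowers, zpowers_le, mem_cj, inv_inv]
    exact m2
  obtain ⟨t1, t2⟩ := ty hy.tr hy.ne (hU.trans f.Hle) wc (fun l hl hn =>
    ⟨Nat.card H, hodd, fun ω _ => by
      have : l ^ Nat.card H = 1 :=
        orderOf_dvd_iff_pow_eq_one.1 (orderOf_dvd_natCard H ((nl l hl).1 hn))
      rw [this, one_smul]⟩)
  refine ⟨t2, ?_⟩
  obtain ⟨c1, c2, c3, c4, -⟩ := t1
  rw [fp_zpowers] at c1 c2 c3 c4
  have hL := mem_L4.1 (f.Hle hh)
  refine ⟨c1, c2, nl, fun n7 x hx ω hω => c3 n7 x ((nl x (f.Hle hx)).2 hx) (f.Hle hx) ω hω,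
    fun e => ?_, ?_⟩
  · obtain ⟨g, hg, hl, e'⟩ := c4 e
    exact ⟨g, (nl g hl).1 hg, e'⟩
  · obtain ⟨n1, n2, n3, n4, n5, n6⟩ := hy.ne
    have s : (normalizer (zpowers h : Set G) ⊓ X3 G a b c) ⊓ stabilizer G d = H := by
      ext g
      constructor
      · rintro ⟨⟨g1, g2⟩, g3⟩
        exact (nl g ⟨g2, g3⟩).1 g1
      · intro hg
        exact ⟨⟨(nl g (f.Hle hg)).2 hg, (f.Hle hg).1⟩, (f.Hle hg).2⟩
    have o : orbit (normalizer (zpowers h : Set G) ⊓ X3 G a b c : Subgroup G) d =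
        fixedBy Ω h \ {a, b, c} := by
      ext w
      constructor
      · rintro ⟨⟨g, g1, g2⟩, rfl⟩
        obtain ⟨ea, eb, ec⟩ := mem_X3.1 g2
        have i := MulAction.injective (β := Ω) g
        refine ⟨?_, ?_⟩
        · have m : g⁻¹ * h * g ∈ zpowers h := by
            have := (mem_normalizer_iff.1 ((normalizer (zpowers h : Set G)).inv_mem g1) h).1
              (mem_zpowers h)
            rwa [inv_inv] at this
          exact conj_smul_iff.1 (mem_L4.1 (f.Hle (hU m))).2.2.2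
        · change ¬ (g • d = a ∨ g • d = b ∨ g • d = c)
          rintro (e | e | e)
          · exact n3 (i (ea.trans e.symm))
          · exact n5 (i (eb.trans e.symm))
          · exact n6 (i (ec.trans e.symm))
      · rintro ⟨w1, w2⟩
        have w3 : ¬ (w = a ∨ w = b ∨ w = c) := w2
        push Not at w3
        obtain ⟨g, g1, ea, eb, ec, ed⟩ := c2 a b c d a b c w ⟨n1, n2, n3, n4, n5, n6⟩
          ⟨n1, n2, w3.1.symm, n4, w3.2.1.symm, w3.2.2.symm⟩ hL.1 hL.2.1 hL.2.2.1 hL.2.2.2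
          hL.1 hL.2.1 hL.2.2.1 w1
        exact ⟨⟨g, g1, mem_X3.2 ⟨ea, eb, ec⟩⟩, ed⟩
    have sub : ({a, b, c} : Set Ω) ⊆ fixedBy Ω h := by
      rintro w (rfl | rfl | rfl)
      · exact hL.1
      · exact hL.2.1
      · exact hL.2.2.1
    rw [← orb_card _ d, s, o, Set.ncard_sdiff sub,
      Set.ncard_eq_three.2 ⟨a, b, c, n1, n2, n4, rfl⟩]

end H5.FBTH1
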