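import Cfsg.Agent.H70.R3Spec
import Cfsg.Agent.S4469

/-! A nilpotent group with a faithful character of degree at most four has an abelian subgroup of
index dividing `24`. -/

set_option autoImplicit false

namespace H5.R3Mon

open Cfsg H28

universe u

theorem jobMon : H70.R3.JobMon.{u} := by
  intro X _ _ _ h
  obtain ⟨χ, hχ, hk, hd⟩ := h
  obtain ⟨B, -, h1, h2⟩ := Cfsg.Agent.S4469.aux_nil hχ
  rw [hk, le_bot_iff, Subgroup.commutator_eq_bot_iff_le_centralizer] at h2
  refine ⟨B, ⟨⟨fun a b => Subtype.ext (h2 b.2 a a.2)⟩⟩, h1.trans ?_⟩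
  exact Nat.factorial_dvd_factorial hd

end H5.R3Mon
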