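import Cfsg.Agent.H5.CycMod
import Cfsg.Agent.H5.FrobCompl
import Cfsg.Agent.H29.Burnside

/-! Groups whose automorphism group has three orbits. -/

namespace H5

open Polynomial Subgroup

variable {G : Type*} [Group G]

theorem exists_aut_extend {P : Subgroup G} [P.Normal] {x x' : G}
    (h : P.IsComplement' (zpowers x)) (h' : P.IsComplement' (zpowers x'))
    (ho : orderOf x = orderOf x') (σ : P ≃* P)
    (hσ : ∀ u : P, σ (MulAut.conjNormal x u) = MulAut.conjNormal x' (σ u)) :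
    ∃ α : MulAut G, α x = x' ∧ ∀ u : P, α u = σ u := by
  have gen : ∀ (y : G) (z : zpowers y), z ∈ zpowers (⟨y, mem_zpowers y⟩ : zpowers y) := by
    rintro y ⟨_, k, rfl⟩
    exact ⟨k, Subtype.ext (by simp)⟩
  let τ : zpowers x ≃* zpowers x' := mulEquivOfOrderOfEq (gen x) (gen x')
    (by rw [← orderOf_coe, ← orderOf_coe (a := (⟨x', _⟩ : zpowers x'))]; exact ho)
  have hτ : τ ⟨x, mem_zpowers x⟩ = ⟨x', mem_zpowers x'⟩ := mulEquivOfOrderOfEq_apply_gen _ _ _
  have hτk : ∀ k : ℤ, (τ ⟨x ^ k, k, rfl⟩ : G) = x' ^ k := by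
    intro k
    have : (⟨x ^ k, k, rfl⟩ : zpowers x) = ⟨x, mem_zpowers x⟩ ^ k := Subtype.ext (by simp)
    rw [this, map_zpow, hτ]; simp
  have hσ' : MulAut.congr σ (MulAut.conjNormal x) = MulAut.conjNormal x' := by
    ext u
    simp only [MulAut.congr_apply, MulEquiv.trans_apply]
    rw [hσ]; simp
  have hσk : ∀ (k : ℤ) (u : P), σ (MulAut.conjNormal (x ^ k) u) =
      MulAut.conjNormal (x' ^ k) (σ u) := by
    intro k u
    rw [map_zpow, map_zpow, ← hσ', ← map_zpow (MulAut.congr σ)]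
    simp only [MulAut.congr_apply, MulEquiv.trans_apply, MulEquiv.symm_apply_apply]
  refine ⟨(SemidirectProduct.mulEquivSubgroup h).symm.trans
    ((SemidirectProduct.congr σ τ ?_).trans (SemidirectProduct.mulEquivSubgroup h')), ?_, ?_⟩
  · rintro ⟨_, k, rfl⟩
    ext u
    have := congrArg Subtype.val (hσk k u)
    simp only [MulAut.conjNormal_apply] at this
    simp only [MulEquiv.trans_apply, MonoidHom.comp_apply, normalizerMonoidHom_apply_apply_coe,
      coe_inclusion, hτk]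
    rw [← this]; rfl
  · have : (SemidirectProduct.mulEquivSubgroup h).symm x = ⟨1, ⟨x, mem_zpowers x⟩⟩ := by
      rw [MulEquiv.symm_apply_eq]; simp
    simp [this, hτ]
  · intro u
    have : (SemidirectProduct.mulEquivSubgroup h).symm u = ⟨u, 1⟩ := by
      rw [MulEquiv.symm_apply_eq]; simp
    simp [this]

section
variable {p : ℕ} (P : Subgroup G) [P.Normal] [IsMulCommutative P]

open scoped IsMulCommutative

/-- The conjugation action as a linear map. -/
noncomputable def conjLin [Module (ZMod p) (Additive P)] :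
    G →* Module.End (ZMod p) (Additive P) where
  toFun x := (MonoidHom.toAdditive (MulAut.conjNormal x : MulAut P).toMonoidHom).toZModLinearMap p
  map_one' := by ext u; simp
  map_mul' x y := by ext u; simp

theorem conjLin_apply [Module (ZMod p) (Additive P)] (x : G) (u : Additive P) :
    conjLin (p := p) P x u = Additive.ofMul (MulAut.conjNormal x u.toMul) := rfl

theorem aeval_conjLin [Fact p.Prime] [Module (ZMod p) (Additive P)] {q : ℕ} [Fact q.Prime] {x : G}
    (hx : x ^ q = 1) (hf : ∀ u ∈ P, x * u * x⁻¹ = u → u = 1) :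
    aeval (conjLin (p := p) P x) (cyclotomic q (ZMod p)) = 0 := by
  refine aeval_cyclotomic_eq_zero _ (by rw [← map_pow, hx, map_one]) fun v hv => ?_
  have : x * (v.toMul : G) * x⁻¹ = v.toMul := congrArg (fun a : Additive P => (a.toMul : G)) hv
  exact Additive.toMul.injective (Subtype.ext (hf _ v.toMul.2 this))

theorem exists_semiconj_grp [Finite G] [Fact p.Prime] (hP : ∀ a ∈ P, a ^ p = 1) {q : ℕ}
    [Fact q.Prime] (hpq : p ≠ q) (ho : orderOf (p : ZMod q) = q - 1) {x x' : G}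
    (hx : x ^ q = 1) (hf : ∀ u ∈ P, x * u * x⁻¹ = u → u = 1)
    (hx' : x' ^ q = 1) (hf' : ∀ u ∈ P, x' * u * x'⁻¹ = u → u = 1) {v w : P} (hv : v ≠ 1)
    (hw : w ≠ 1) : ∃ σ : P ≃* P, σ v = w ∧
      ∀ u : P, σ (MulAut.conjNormal x u) = MulAut.conjNormal x' (σ u) := by
  let _ : Module (ZMod p) (Additive P) := AddCommGroup.zmodModule fun a =>
    Additive.toMul.injective (Subtype.ext (by simpa using hP _ a.toMul.2))
  obtain ⟨σ, h1, h2⟩ := exists_semiconj_of_irreducible (irreducible_cyclotomic_of_orderOf hpq ho)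
    (aeval_conjLin P hx hf) (aeval_conjLin P hx' hf') (v := Additive.ofMul v)
    (w := Additive.ofMul w) hv hw
  exact ⟨AddEquiv.toMultiplicative σ, h1, fun u => h2 (Additive.ofMul u)⟩

theorem orderOf_eq_of_aut' [Finite G] [Fact p.Prime] [P.Characteristic]
    [Module (ZMod p) (Additive P)] (hP1 : P ≠ ⊥) {q : ℕ} [Fact q.Prime] (hpq : p ≠ q) {x : G}
    (hx : x ^ q = 1) (hf : ∀ u ∈ P, x * u * x⁻¹ = u → u = 1)
    (hG : ∀ g : G, ∃ k : ℕ, ∃ u ∈ P, g = x ^ k * u)
    (h1 : ∀ v ∈ P, ∀ w ∈ P, v ≠ 1 → w ≠ 1 → ∃ α : MulAut G, α v = w)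
    (h2 : ∀ k, 1 ≤ k → k < q → ∃ α : MulAut G, α x = x ^ k) :
    orderOf (p : ZMod q) = q - 1 := by
  have : Nontrivial P := (nontrivial_iff_ne_bot P).2 hP1
  have key : ∀ (α : MulAut G) (k : ℕ) (u : G), u ∈ P → α x = x ^ k * u →
      ∃ σ : Additive P ≃+ Additive P, (∀ v : Additive P, ((σ v).toMul : G) = α v.toMul) ∧
        ∀ v, σ (conjLin (p := p) P x v) = conjLin (p := p) P (x ^ k) (σ v) := by
    intro α k u hu hα
    have hm : P.map α.toMonoidHom = P := characteristic_iff_map_eq.1 inferInstance α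
    let e : P ≃* P := (α.subgroupMap P).trans (MulEquiv.subgroupCongr hm)
    have he : ∀ v : P, (e v : G) = α v := fun _ => rfl
    refine ⟨MulEquiv.toAdditive e, fun v => rfl, fun v => ?_⟩
    apply Additive.toMul.injective
    apply Subtype.ext
    change α (x * v.toMul * x⁻¹) = x ^ k * (e v.toMul : G) * (x ^ k)⁻¹
    have hc : u * (e v.toMul : G) = e v.toMul * u :=
      congrArg Subtype.val (mul_comm (⟨u, hu⟩ : P) (e v.toMul))
    rw [map_mul, map_mul, map_inv, hα, ← he, mul_assoc (x ^ k), hc]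
    group
  refine orderOf_eq_of_trans hpq (conjLin (p := p) P x) (aeval_conjLin P hx hf) ?_ ?_
  · intro v w hv hw
    obtain ⟨α, hα⟩ := h1 _ v.toMul.2 _ w.toMul.2
      (fun h => hv (Additive.toMul.injective (Subtype.ext h)))
      (fun h => hw (Additive.toMul.injective (Subtype.ext h)))
    obtain ⟨k, u, hu, hk⟩ := hG (α x)
    obtain ⟨σ, s1, s2⟩ := key α k u hu hk
    refine ⟨{ σ with map_smul' := ZMod.map_smul σ }, k,
      Additive.toMul.injective (Subtype.ext ((s1 v).trans hα)), ?_⟩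
    rw [← map_pow]; exact s2
  · intro k hk1 hk2
    obtain ⟨α, hα⟩ := h2 k hk1 hk2
    obtain ⟨σ, -, s2⟩ := key α k 1 P.one_mem (by rw [hα, mul_one])
    refine ⟨{ σ with map_smul' := ZMod.map_smul σ }, ?_⟩
    rw [← map_pow]; exact s2

theorem orderOf_eq_of_aut [Finite G] [Fact p.Prime] [P.Characteristic] (hP : ∀ a ∈ P, a ^ p = 1)
    (hP1 : P ≠ ⊥) {q : ℕ} [Fact q.Prime] (hpq : p ≠ q) {x : G}
    (hx : x ^ q = 1) (hf : ∀ u ∈ P, x * u * x⁻¹ = u → u = 1)
    (hG : ∀ g : G, ∃ k : ℕ, ∃ u ∈ P, g = x ^ k * u)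
    (h1 : ∀ v ∈ P, ∀ w ∈ P, v ≠ 1 → w ≠ 1 → ∃ α : MulAut G, α v = w)
    (h2 : ∀ k, 1 ≤ k → k < q → ∃ α : MulAut G, α x = x ^ k) :
    orderOf (p : ZMod q) = q - 1 := by
  let _ : Module (ZMod p) (Additive P) := AddCommGroup.zmodModule fun a =>
    Additive.toMul.injective (Subtype.ext (by simpa using hP _ a.toMul.2))
  exact orderOf_eq_of_aut' P hP1 hpq hx hf hG h1 h2

end

theorem orderOf_mulAut (α : MulAut G) (x : G) : orderOf (α x) = orderOf x :=
  MulEquiv.orderOf_eq α x

theorem three_orbits_iff {a b : G} (ha : a ≠ 1) (hb : b ≠ 1) (hab : orderOf a ≠ orderOf b) :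
    Nat.card (MulAction.orbitRel.Quotient (MulAut G) G) = 3 ↔
      ∀ z : G, z = 1 ∨ (∃ α : MulAut G, α a = z) ∨ ∃ α : MulAut G, α b = z := by
  let m : G → MulAction.orbitRel.Quotient (MulAut G) G := Quotient.mk''
  have hm : ∀ x y, m x = m y ↔ ∃ α : MulAut G, α y = x := fun x y => Quotient.eq''
  have h3 : ({m 1, m a, m b} : Set _).ncard = 3 := by
    rw [Set.ncard_eq_three]
    refine ⟨_, _, _, ?_, ?_, ?_, rfl⟩
    · rw [Ne, hm]; rintro ⟨α, h⟩; exact ha (by simpa using h)
    · rw [Ne, hm]; rintro ⟨α, h⟩; exact hb (by simpa using h)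
    · rw [Ne, hm]; rintro ⟨α, h⟩; exact hab (by rw [← h, orderOf_mulAut])
  constructor
  · intro h z
    have : Finite (MulAction.orbitRel.Quotient (MulAut G) G) :=
      Nat.finite_of_card_ne_zero (by omega)
    have hu := Set.eq_of_subset_of_ncard_le (Set.subset_univ ({m 1, m a, m b} : Set _))
      (by rw [Set.ncard_univ, h, h3]) (Set.toFinite _)
    have hz : m z ∈ ({m 1, m a, m b} : Set _) := hu ▸ Set.mem_univ _
    rcases hz with hz | hz | hz
    · obtain ⟨α, h⟩ := (hm _ _).1 hz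
      exact Or.inl (by simpa using h.symm)
    · exact Or.inr (Or.inl ((hm _ _).1 hz))
    · exact Or.inr (Or.inr ((hm _ _).1 hz))
  · intro h
    rw [← h3, ← Set.ncard_univ]
    congr 1
    symm
    rw [Set.eq_univ_iff_forall]
    intro z
    obtain ⟨z, rfl⟩ := Quotient.exists_rep z
    rcases h z with rfl | hz | hz
    · exact Or.inl rfl
    · exact Or.inr (Or.inl ((hm _ _).2 hz))
    · exact Or.inr (Or.inr ((hm _ _).2 hz))

theorem mem_of_char {H : Subgroup G} [H.Characteristic] (α : MulAut G) {x : G} :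
    α x ∈ H ↔ x ∈ H := by
  conv_rhs => rw [← characteristic_iff_comap_eq.1 (inferInstance : H.Characteristic) α]
  rfl

theorem orderOf_mul_of_conj_eq {x y : G} {p q : ℕ} (hp : p.Prime) (hq : q.Prime) (hpq : p ≠ q)
    (hx : orderOf x = q) (hy : orderOf y = p) (h : x * y * x⁻¹ = y) : orderOf (x * y) = q * p := by
  have hc : Commute x y := by
    change x * y = y * x
    rw [← mul_inv_eq_iff_eq_mul, h]
  rw [hc.orderOf_mul_eq_mul_orderOf_of_coprime (by
    rw [hx, hy]; exact (Nat.coprime_primes hq hp).2 hpq.symm), hx, hy]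

theorem isComplement'_zpowers [Finite G] {P : Subgroup G} [P.Normal] {q : ℕ} (hq : q.Prime)
    (hi : P.index = q) {x : G} (hx : orderOf x = q) (hxP : x ∉ P) :
    P.IsComplement' (zpowers x) := by
  refine isComplement'_of_card_mul_and_disjoint ?_ ?_
  · rw [Nat.card_zpowers, hx, ← hi, card_mul_index]
  · have hd : Nat.card (P ⊓ zpowers x : Subgroup G) ∣ q := by
      rw [← hx, ← Nat.card_zpowers]; exact card_dvd_of_le inf_le_right
    rcases (Nat.dvd_prime hq).1 hd with h | h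
    · exact disjoint_iff.2 (eq_bot_of_card_eq _ h)
    · exfalso
      have : P ⊓ zpowers x = zpowers x :=
        eq_of_le_of_card_ge inf_le_right (by rw [h, Nat.card_zpowers, hx])
      exact hxP (this.ge (mem_zpowers x)).1

end H5
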