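import Cfsg.Agent.H91.VCSpec

/-! VC tower (row S4070), job SCO: the field of a quasi-primitive module of a group of odd order. -/

set_option autoImplicit false

namespace H5.VC

open H33.Solv Subgroup H91.VC

theorem jobSCO : JobSCO := by
  intro G V _ _ _ _ _ hs _ ho hi hq
  have : Finite (AddMonoid.End V) := DFunLike.finite _
  let ρ := (DistribMulAction.toAddMonoidEnd G V).toHomUnits
  have hs0 : Group.IsSolvable ρ.range := Group.isSolvable_of_surjective ρ.rangeRestrict_surjective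
  obtain ⟨U, ⟨u2, u3, u4⟩, umax⟩ := H2.exists_maximal_subgroup
    (fun U : Subgroup (AddMonoid.End V)ˣ => U ≤ ρ.range ∧
      (∀ g ∈ ρ.range, ∀ a ∈ U, g * a * g⁻¹ ∈ U) ∧ ∀ a ∈ U, ∀ b ∈ U, a * b = b * a)
    ⟨⊥, bot_le, fun g _ a ha => by simp [mem_bot.1 ha], fun a ha b _ => by simp [mem_bot.1 ha]⟩
  let K := Subring.closure (Units.val '' (U : Set (AddMonoid.End V)ˣ))
  have hc : ∀ a ∈ K, ∀ b ∈ K, a * b = b * a := fun a ha b hb =>
    congrArg Subtype.val ((Subring.isMulCommutative_closure (by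
      rintro _ ⟨a, ha, rfl⟩ _ ⟨b, hb, rfl⟩
      exact congrArg Units.val (u4 a ha b hb))).is_comm.comm (⟨a, ha⟩ : K) ⟨b, hb⟩)
  have hK : ∀ g ∈ ρ.range, ∀ a ∈ K, g.1 * a * g⁻¹.1 ∈ K := fun g hg a ha => by
    induction ha using Subring.closure_induction with
    | mem x hx =>
      obtain ⟨x, hx, rfl⟩ := hx
      exact Subring.subset_closure ⟨_, u3 g hg x hx, rfl⟩
    | zero => simp
    | one => simp
    | add x y _ _ hx hy => rw [mul_add, add_mul]; exact add_mem hx hy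
    | neg x _ hx => rw [mul_neg, neg_mul]; exact neg_mem hx
    | mul x y _ _ hx hy => simpa [mul_assoc] using mul_mem hx hy
  have hF := isField_of hc hK (fun W hW => hi W fun g => hW (ρ.rangeRestrict g))
    fun e he h => hq e he fun g => h (ρ.rangeRestrict g)
  let _ := hF.toField
  let ι : Kˣ →* (AddMonoid.End V)ˣ := Units.map K.subtype.toMonoidHom
  have hι : ∀ a, a ∈ ι.range ↔ a.1 ∈ K := fun a => ⟨by rintro ⟨c, rfl⟩; exact c.1.2, fun h =>
    ⟨Units.mk0 ⟨a.1, h⟩ fun e => by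
      obtain ⟨v, hv⟩ := exists_ne (0 : V)
      exact hv ((smul_eq_zero_iff_eq a).1 (DFunLike.congr_fun (congrArg Subtype.val e) v)),
      Units.ext rfl⟩⟩
  have hn : ∀ g ∈ ρ.range, ∀ a ∈ ι.range, g * a * g⁻¹ ∈ ι.range := fun g hg a ha =>
    (hι _).2 (hK g hg _ ((hι _).1 ha))
  have hn' : ρ.range ≤ normalizer (ι.range : Set _) := fun g hg => mem_normalizer_fintype (hn g hg)
  have hU : U ≤ ι.range := fun a ha => (hι a).2 (Subring.subset_closure ⟨a, ha, rfl⟩)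
  have hcm : ∀ a ∈ ι.range, ∀ b ∈ ι.range, a * b = b * a := fun a ha b hb =>
    Units.ext (hc _ ((hι a).1 ha) _ ((hι b).1 hb))
  let G' := ι.range ⊔ ρ.range
  have hN : G' ≤ normalizer (ι.range : Set _) := sup_le le_normalizer hn'
  have hdec : ∀ a ∈ G', ∃ z ∈ ι.range, ∃ g ∈ ρ.range, a = z * g := fun a ha => by
    have h1 : a ∈ ((ι.range ⊔ ρ.range : Subgroup _) : Set (AddMonoid.End V)ˣ) := ha
    rw [coe_mul_of_right_le_normalizer_left _ _ hn'] at h1
    obtain ⟨z, hz, g, hg, e⟩ := h1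
    exact ⟨z, hz, g, hg, e.symm⟩
  let ι' : Kˣ →* G' := ι.codRestrict G' fun c => mem_sup_left ⟨c, rfl⟩
  let j : G →* G' := ρ.codRestrict G' fun g => mem_sup_right ⟨g, rfl⟩
  have hmem : ∀ a : G', a ∈ ι'.range ↔ a.1 ∈ ι.range := fun a =>
    exists_congr fun c => Subtype.ext_iff
  have hnor : ι'.range.Normal :=
    ⟨fun a ha g => (hmem _).2 ((mem_normalizer_iff.1 (hN g.2) a.1).1 ((hmem a).1 ha))⟩
  refine ⟨K, G', inferInstance, inferInstance, inferInstance, inferInstance, inferInstance,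
    inferInstance, inferInstance, ⟨ι', fun _ _ => rfl, hnor, fun M hM hc' hle' a ha => ?_⟩,
    H46.sol_sup hn' (Group.isSolvable_of_comm fun a b => Subtype.ext (hcm a a.2 b b.2)) hs0,
    fun g => ⟨j g, fun _ => rfl⟩, ?_⟩
  · have hZ : ι.range ≤ M.map G'.subtype := fun b hb =>
      ⟨⟨b, mem_sup_left hb⟩, hle' ((hmem _).2 hb), rfl⟩
    have h5 : M.map G'.subtype ⊓ ρ.range = U := by
      refine umax _ ⟨inf_le_right, ?_, ?_⟩ (le_inf (hU.trans hZ) u2)
      · rintro g hg _ ⟨⟨a, ha, rfl⟩, h⟩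
        exact ⟨⟨_, hM.conj_mem a ha ⟨g, mem_sup_right hg⟩, rfl⟩,
          ρ.range.mul_mem (ρ.range.mul_mem hg h) (ρ.range.inv_mem hg)⟩
      · rintro _ ⟨⟨a, ha, rfl⟩, -⟩ _ ⟨⟨b, hb, rfl⟩, -⟩
        exact congrArg Subtype.val (hc' a ha b hb)
    obtain ⟨z, hz, g, hg, e⟩ := hdec a.1 a.2
    have h6 : z⁻¹ * a.1 ∈ M.map G'.subtype := mul_mem (inv_mem (hZ hz)) ⟨a, ha, rfl⟩
    rw [e, inv_mul_cancel_left] at h6
    rw [hmem, e]
    exact mul_mem hz (hU (h5.le ⟨h6, hg⟩))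
  · refine ho.of_dvd_nat (card_dvd_of_surjective ((QuotientGroup.mk' ι'.range).comp j) fun x => ?_)
    obtain ⟨a, rfl⟩ := QuotientGroup.mk_surjective x
    obtain ⟨z, hz, _, ⟨g, rfl⟩, e⟩ := hdec a.1 a.2
    refine ⟨g, QuotientGroup.eq.2 ((hmem _).2 ?_)⟩
    change (ρ g)⁻¹ * a.1 ∈ _
    rw [e, ← mul_assoc]
    simpa using hn _ (inv_mem ⟨g, rfl⟩) z hz

end H5.VC
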