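/- SIM tower, chapter XS, job Cub: cubes in a group of class two over a centre of exponent 3. -/
import Cfsg.Agent.H52.SimXSSpec

set_option autoImplicit false

namespace H5.XSCub

open Subgroup
open scoped commutatorElement

theorem cube_mul {G : Type*} [Group G] {a b : G} (hc : ⁅b, a⁆ ∈ center G) (h3 : ⁅b, a⁆ ^ 3 = 1) :
    (a * b) ^ 3 = a ^ 3 * b ^ 3 := by
  have h1 : b * a = ⁅b, a⁆ * (a * b) := by rw [commutatorElement_def]; group
  generalize ⁅b, a⁆ = c at hc h3 h1
  have h2 : ∀ g w, g * (c * w) = c * (g * w) := fun g w => by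
    rw [← mul_assoc, mem_center_iff.1 hc g, mul_assoc]
  have h4 : ∀ w, b * (a * w) = c * (a * (b * w)) := fun w => by
    rw [← mul_assoc, h1]; simp only [mul_assoc]
  calc (a * b) ^ 3 = a * (b * (a * (b * (a * b)))) := by
        simp only [pow_succ, pow_zero, one_mul, mul_assoc]
    _ = c * (c * (c * (a * (a * (a * (b * (b * b))))))) := by
      rw [h4 b, h2 a, h2 b, h2 a, h4 (a * (b * b)), h2 a, h4 (b * b), h2 a, h2 a]
    _ = a ^ 3 * b ^ 3 := by
      rw [← mul_assoc, ← mul_assoc, ← pow_three', h3, one_mul]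
      simp only [pow_succ, pow_zero, one_mul, mul_assoc]

theorem job : H52.XS.JobCub := by
  intro G _ Z Y hZ h3 hz hp hc
  have cube : ∀ a ∈ Y, ∀ b ∈ Y, (a * b) ^ 3 = a ^ 3 * b ^ 3 := fun a ha b hb =>
    cube_mul (hZ (hc b hb a ha)) (h3 _ (hc b hb a ha))
  refine ⟨?_, fun he t ht htt x hx => ?_⟩
  · rintro ⟨a, ha, b, hb, hab⟩
    by_cases h : a ^ 3 = 1
    · exact ⟨a, ha, fun h0 => hab (mem_center_iff.1 (hZ h0) b).symm, h⟩
    · obtain ⟨k, hk⟩ := mem_zpowers_iff.1 (hz _ (hp a ha) h (hp b hb))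
      have hm : a ^ (-k) ∈ Y := Y.zpow_mem ha _
      refine ⟨a ^ (-k) * b, Y.mul_mem hm hb, fun h0 => hab ?_, ?_⟩
      · have h1 : Commute a (a ^ (-k) * b) := mem_center_iff.1 (hZ h0) a
        have h2 : Commute a (a ^ k * (a ^ (-k) * b)) := ((Commute.refl a).zpow_right k).mul_right h1
        simpa [← mul_assoc] using h2.eq
      · rw [cube _ hm _ hb, ← hk, ← zpow_natCast, ← zpow_natCast, ← zpow_mul, ← zpow_mul,
          ← zpow_add]
        simp [mul_comm]
  · have hx' : t * x * t⁻¹ ∈ Y := (mem_normalizer_iff.1 ht x).1 hx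
    have h1 : (t * x * t⁻¹) ^ 3 = x ^ 3 := by
      rw [conj_pow, mem_center_iff.1 (hZ (hp x hx)) t, mul_inv_cancel_right]
    have h2 : t * x * t⁻¹ * x⁻¹ ∈ Z := he _ (Y.mul_mem hx' (Y.inv_mem hx)) (by
      rw [cube _ hx' _ (Y.inv_mem hx), h1, inv_pow, mul_inv_cancel])
    have h4 : t * x = t * x * t⁻¹ * x⁻¹ * (x * t) := by group
    have h5 := h3 _ h2
    have h6 := mem_center_iff.1 (hZ h2)
    generalize t * x * t⁻¹ * x⁻¹ = z at h4 h5 h6
    have h7 : x = z * z * x := by
      calc x = t * (t * x) := by rw [← mul_assoc, htt, one_mul]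
        _ = t * (z * (x * t)) := by rw [← h4]
        _ = z * (t * x * t) := by rw [← mul_assoc t z, h6 t]; simp only [mul_assoc]
        _ = z * z * x := by rw [h4]; simp only [mul_assoc, htt, mul_one]
    have h8 : z * z = 1 := by simpa using h7.symm
    have h9 : z = 1 := by rw [pow_three', h8, one_mul] at h5; exact h5
    rw [h4, h9, one_mul]

end H5.XSCub
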